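import Cfsg.Agent.SLComm.Two.Decomp

/-!
Every element of `SL(n,F)` is a commutator.
-/

set_option autoImplicit false

namespace Cfsg.Agent.SLComm

open Matrix

theorem isComm_map {K F : Type*} [Field K] [Field F] {ι : Type*} [Fintype ι] [DecidableEq ι]
    (φ : K →+* F) {g : Matrix ι ι K} (h : IsComm g) : IsComm (g.map φ) := by
  obtain ⟨a, b, ha, hb, h⟩ := h
  refine ⟨a.map φ, b.map φ, ?_, ?_, ?_⟩
  · rw [← RingHom.mapMatrix_apply, ← RingHom.map_det, ha, map_one]
  · rw [← RingHom.mapMatrix_apply, ← RingHom.map_det, hb, map_one]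
  · rw [← Matrix.map_mul, ← Matrix.map_mul, h, Matrix.map_mul]

theorem isComm_SL {F : Type*} [Field F] [Fintype F] {n : ℕ} (hn : 2 ≤ n)
    (hex : n = 2 → 4 ≤ Fintype.card F) (g : Matrix (Fin n) (Fin n) F) (hdet : g.det = 1) :
    IsComm g := by
  by_cases hq : 3 ≤ Fintype.card F
  · exact isComm_of_three_le hn hq hex g hdet
  have h2 : Fintype.card F = 2 := by
    have := Fintype.one_lt_card (α := F)
    omega
  have hn3 : 3 ≤ n := by
    by_contra hlt
    have := hex (by omega)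
    omega
  let e : ZMod 2 ≃+* F := ZMod.ringEquivOfPrime F Nat.prime_two h2
  have hg : g = (g.map e.symm).map e := by
    ext i j
    simp
  rw [hg]
  refine isComm_map (e : ZMod 2 →+* F) (isComm_two hn3 _ ?_)
  have h3 := RingHom.map_det (e.symm : F →+* ZMod 2) g
  rw [hdet, map_one] at h3
  exact h3.symm

theorem exists_commutator {F : Type*} [Field F] [Fintype F] (n : ℕ) (hn : 2 ≤ n)
    (hex : n = 2 → 4 ≤ Fintype.card F) (g : Matrix.SpecialLinearGroup (Fin n) F) :
    ∃ a b : Matrix.SpecialLinearGroup (Fin n) F, g = a * b * a⁻¹ * b⁻¹ := by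
  obtain ⟨a, b, ha, hb, h⟩ := isComm_SL hn hex g.1 g.2
  refine ⟨⟨a, ha⟩, ⟨b, hb⟩, ?_⟩
  have key : ∀ A B : Matrix.SpecialLinearGroup (Fin n) F,
      g * (B * A) = A * B → g = A * B * A⁻¹ * B⁻¹ := by
    intro A B h2
    rw [← h2]
    group
  exact key _ _ (Subtype.ext h)

end Cfsg.Agent.SLComm
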