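import Cfsg.Agent.SLComm.Cyclic

/-!
Assembling a commutator from a triangular factorisation with a small tail block.
-/

set_option autoImplicit false

namespace Cfsg.Agent.SLComm

open Matrix

variable {F : Type*} [Field F]

/-- The tail condition: `g = B C⁻¹` with both factors similar to `A`. -/
def TailOK {k : ℕ} (A g : Matrix (Fin k) (Fin k) F) : Prop :=
  ∃ C : Matrix (Fin k) (Fin k) F, Sim C A ∧ Sim (g * C) A

theorem tailOK_of_sim {k : ℕ} {A g h : Matrix (Fin k) (Fin k) F} (hs : Sim g h)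
    (hh : TailOK A h) : TailOK A g := by
  obtain ⟨P, hP, hs⟩ := hs
  obtain ⟨C, hC, hC'⟩ := hh
  have hconj : ∀ X : Matrix (Fin k) (Fin k) F, Sim (P * X * P⁻¹) X := fun X =>
    ⟨P, hP, by rw [nonsing_inv_mul_cancel_right P _ hP]⟩
  refine ⟨P * C * P⁻¹, sim_trans (hconj C) hC, ?_⟩
  have e : g * (P * C * P⁻¹) = P * (h * C) * P⁻¹ := by
    rw [← Matrix.mul_assoc, ← Matrix.mul_assoc, hs]
    simp only [Matrix.mul_assoc]
  rw [e]
  exact sim_trans (hconj _) hC'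

theorem tailOK_one {k : ℕ} (A : Matrix (Fin k) (Fin k) F) : TailOK A (1 : Matrix _ _ F) :=
  ⟨A, sim_refl A, by rw [Matrix.one_mul]; exact sim_refl A⟩

/-- Data of a triangular factorisation with band `m` and tail `k`. -/
structure Fact (m k : ℕ) (G : Matrix (Fin m ⊕ Fin k) (Fin m ⊕ Fin k) F) where
  Lm : Matrix (Fin m) (Fin m) F
  Um : Matrix (Fin m) (Fin m) F
  R : Matrix (Fin k) (Fin m) F
  R' : Matrix (Fin m) (Fin k) F
  tail : Matrix (Fin k) (Fin k) F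
  low : Low Lm
  up : Up Um
  lowAdj : ∀ i j : Fin m, (j : ℕ) + 1 = i → Lm i j ≠ 0
  upAdj : ∀ i j : Fin m, (i : ℕ) + 1 = j → Um i j ≠ 0
  sim : Sim G (fromBlocks Lm 0 R tail * fromBlocks Um R' 0 1)

theorem assemble [Finite F] {m k : ℕ} {G : Matrix (Fin m ⊕ Fin k) (Fin m ⊕ Fin k) F}
    (d : Fact m k G) (A : Matrix (Fin k) (Fin k) F) (hA1 : A.det = 1) (hA : (A - 1).det ≠ 0)
    (hz : ∀ t : F, t ≠ 0 →
      ∃ (a : F) (Z : Matrix (Fin k) (Fin k) F), Z * A = A * Z ∧ a ^ m * Z.det = t)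
    (ht : TailOK A d.tail) : IsComm G := by
  obtain ⟨C, hC, hB⟩ := ht
  obtain ⟨hu, -, -⟩ := up_inv d.up
  obtain ⟨hUsim, hUnil⟩ := sim_jordan_up d.up d.upAdj
  have hLsim := sim_jordan d.low d.lowAdj
  have hLnil := low_pow_eq_zero d.low
  have hsep : ∀ X : Matrix (Fin k) (Fin k) F, Sim X A → (X - 1).det ≠ 0 := by
    rintro X ⟨P, hP, hX⟩
    have : Sim (X - 1) (A - 1) := ⟨P, hP, by
      rw [Matrix.sub_mul, Matrix.mul_sub, hX, Matrix.one_mul, Matrix.mul_one]⟩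
    rw [det_eq_of_sim this]
    exact hA
  refine isComm_of_sim d.sim (isComm_of_conj
    (B := fromBlocks d.Lm 0 d.R (d.tail * C))
    (U' := fromBlocks d.Um⁻¹ (-(d.Um⁻¹ * d.R' * C)) 0 C)
    (N := fromBlocks (jordan F m) 0 0 A) ?_ ?_ ?_ ?_ ?_)
  · rw [Matrix.mul_assoc, fromBlocks_multiply d.Um, fromBlocks_multiply d.Lm]
    simp [mul_nonsing_inv _ hu, ← Matrix.mul_assoc]
  · have h1 : d.Lm.det = 1 := by
      rw [det_of_lowerTriangular d.Lm (fun i j hij => d.low.2 i j hij)]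
      exact Finset.prod_eq_one fun i _ => d.low.1 i
    rw [det_fromBlocks_zero₁₂, h1, det_eq_of_sim hB, hA1, one_mul]
  · exact sim_trans (sim_lower _ _ m hLnil (hsep _ hB) _) (sim_fromBlocks hLsim hB)
  · exact sim_trans (sim_upper _ _ m hUnil (hsep _ hC) _) (sim_fromBlocks hUsim hC)
  · intro t ht
    obtain ⟨a, Z, hZ, hd⟩ := hz t ht
    refine ⟨fromBlocks (a • (1 : Matrix (Fin m) (Fin m) F)) 0 0 Z, ?_, ?_⟩
    · simp [fromBlocks_multiply, hZ]
    · rw [det_fromBlocks_zero₂₁, det_smul, det_one, Fintype.card_fin, mul_one, hd]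

end Cfsg.Agent.SLComm
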