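import Cfsg.Agent.SLComm.Step
import Cfsg.Agent.SLComm.Assemble

/-!
Iterating the step: triangular factorisation with a band and a tail.
-/

set_option autoImplicit false

namespace Cfsg.Agent.SLComm

open Matrix Module

variable {F : Type*} [Field F]

/-- `Unit ⊕ Fin m ≃ Fin (m+1)`, `inl ↦ 0`. -/
def eCons (m : ℕ) : Unit ⊕ Fin m ≃ Fin (m + 1) where
  toFun := Sum.elim (fun _ => 0) Fin.succ
  invFun i := Fin.cases (Sum.inl ()) Sum.inr i
  left_inv x := by rcases x with ⟨⟩ | i <;> simp
  right_inv i := by cases i using Fin.cases <;> simp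

/-- The index equivalence of a step. -/
def eStep (m k : ℕ) : Unit ⊕ (Fin m ⊕ Fin k) ≃ Fin (m + 1) ⊕ Fin k :=
  (Equiv.sumAssoc Unit (Fin m) (Fin k)).symm.trans (Equiv.sumCongr (eCons m) (Equiv.refl _))

/-- Output of the recursion. -/
structure BandOut (m k : ℕ) (g : Matrix (Fin m ⊕ Fin k) (Fin m ⊕ Fin k) F)
    (c r : Fin m ⊕ Fin k → F) where
  fact : Fact m k g
  det_tail : fact.tail.det = 1
  ns_tail : ∀ μ : F, fact.tail ≠ μ • 1
  rk_tail : k ≠ 2 → 2 ≤ finrank F (img (fact.tail - 1))
  P : Matrix (Fin m ⊕ Fin k) (Fin m ⊕ Fin k) F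
  unit : IsUnit P.det
  eq : g * P = P * (fromBlocks fact.Lm 0 fact.R fact.tail * fromBlocks fact.Um fact.R' 0 1)
  top : ∀ h : 0 < m, (∃ c', P *ᵥ c' = c ∧ c' (Sum.inl ⟨0, h⟩) ≠ 0) ∧
    (r ᵥ* P) (Sum.inl ⟨0, h⟩) ≠ 0

variable [Fintype F]

theorem exists_bandOut (k : ℕ) (hk : (k = 2 ∧ 4 ≤ Fintype.card F) ∨ (k = 3 ∧ 3 ≤ Fintype.card F)) :
    ∀ (m : ℕ) (g : Matrix (Fin m ⊕ Fin k) (Fin m ⊕ Fin k) F), g.det = 1 →
      (∀ μ : F, g ≠ μ • 1) → (m ≠ 0 ∨ k ≠ 2 → 2 ≤ finrank F (img (g - 1))) →
      ∀ c r, (m ≠ 0 → c ≠ 0 ∧ r ≠ 0) → Nonempty (BandOut m k g c r) := by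
  intro m
  induction m with
  | zero =>
    intro g hdet hns hrk c r _
    have hg : g = fromBlocks 1 0 0 g.toBlocks₂₂ := by
      ext (i | i) (j | j)
      · exact i.elim0
      · exact i.elim0
      · exact j.elim0
      · rfl
    refine ⟨{
      fact := { Lm := 1, Um := 1, R := 0, R' := 0, tail := g.toBlocks₂₂,
                low := ⟨fun i => i.elim0, fun i => i.elim0⟩,
                up := ⟨fun i => i.elim0, fun i => i.elim0⟩,
                lowAdj := fun i => i.elim0, upAdj := fun i => i.elim0,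
                sim := ?_ }
      det_tail := ?_, ns_tail := ?_, rk_tail := ?_, P := 1, unit := by simp, eq := ?_,
      top := fun h => absurd h (lt_irrefl 0) }⟩
    · exact ⟨1, by simp, by simpa [fromBlocks_multiply] using hg⟩
    · rw [hg, det_fromBlocks_zero₂₁, det_one, one_mul] at hdet
      exact hdet
    · intro μ h
      apply hns μ
      ext (i | i) (j | j)
      · exact i.elim0
      · exact i.elim0
      · exact j.elim0
      · have := congrFun (congrFun h i) j
        simpa [toBlocks₂₂, Matrix.one_apply] using this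
    · intro hk2
      have h2 := hrk (Or.inr hk2)
      have e : g.toBlocks₂₂ - 1 = (g - 1).submatrix (Equiv.emptySum (Fin 0) (Fin k)).symm
          (Equiv.emptySum (Fin 0) (Fin k)).symm := by
        ext i j
        simp [toBlocks₂₂, Matrix.one_apply]
      change 2 ≤ (g.toBlocks₂₂ - 1).rank
      rw [e, rank_submatrix]
      exact h2
    · simpa [fromBlocks_multiply] using hg
  | succ m ih =>
    intro g hdet hns hrk c r hcr
    obtain ⟨hc, hr⟩ := hcr (Nat.succ_ne_zero m)
    have hq : 3 ≤ Fintype.card F := by omega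
    have hcard : Fintype.card (Fin (m + 1) ⊕ Fin k) = m + 1 + k := by simp
    have hrk1 := hrk (Or.inl (Nat.succ_ne_zero m))
    set e := eStep m k with he
    obtain ⟨v, φ, D, hrv, hφc, hg'd, hg'ns, hg'rk, hg'cr⟩ : ∃ (v φ : Fin (m + 1) ⊕ Fin k → F)
        (D : Frame g e v φ), r ⬝ᵥ v ≠ 0 ∧ φ ⬝ᵥ c ≠ 0 ∧ D.g'.det = 1 ∧ (∀ μ : F, D.g' ≠ μ • 1) ∧
        (m ≠ 0 ∨ k ≠ 2 → 2 ≤ finrank F (img (D.g' - 1))) ∧ (m ≠ 0 → D.cv ≠ 0 ∧ D.rv ≠ 0) := by
      by_cases hlast : m = 0 ∧ k = 2
      · obtain ⟨v, φ, D, h1, h2, h3, h4⟩ := step_last e g hq (by omega) hdet hrk1 hns hc hr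
        exact ⟨v, φ, D, h1, h2, h3, h4, fun h => absurd hlast (by tauto),
          fun h => absurd hlast.1 h⟩
      · obtain ⟨v, φ, D, h1, h2, h3, h4, h5, h6, h7⟩ :=
          step_main e g hq (by omega) hdet hrk1 hns hc hr
        exact ⟨v, φ, D, h1, h2, h3, h5, fun _ => h4, fun hm => ⟨h6, h7 (by omega)⟩⟩
    obtain ⟨O⟩ := ih D.g' hg'd hg'ns hg'rk D.cv D.rv hg'cr
    obtain ⟨Q, hQ, hQeq⟩ : ∃ Q, IsUnit (Q : Matrix (Fin m ⊕ Fin k) (Fin m ⊕ Fin k) F).det ∧
        Q = O.P := ⟨O.P, O.unit, rfl⟩
    set c'' := Q⁻¹ *ᵥ D.cv with hc''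
    set r'' := D.rv ᵥ* Q with hr''
    set L' := fromBlocks O.fact.Lm 0 O.fact.R O.fact.tail with hL'
    set U' := fromBlocks O.fact.Um O.fact.R' 0 (1 : Matrix (Fin k) (Fin k) F) with hU'
    set LB : Matrix (Unit ⊕ (Fin m ⊕ Fin k)) (Unit ⊕ (Fin m ⊕ Fin k)) F :=
      fromBlocks 1 0 (replicateCol Unit c'') L' with hLB
    set UB : Matrix (Unit ⊕ (Fin m ⊕ Fin k)) (Unit ⊕ (Fin m ⊕ Fin k)) F :=
      fromBlocks 1 (replicateRow Unit r'') 0 U' with hUB
    set B : Matrix (Unit ⊕ (Fin m ⊕ Fin k)) (Unit ⊕ (Fin m ⊕ Fin k)) F :=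
      fromBlocks 1 0 0 Q with hB
    have hcore : g * (D.P.submatrix id e * B) = (D.P.submatrix id e * B) * (LB * UB) := by
      rw [← Matrix.mul_assoc, D.eq, Matrix.mul_assoc, Matrix.mul_assoc]
      congr 1
      rw [hB, hLB, hUB, fromBlocks_multiply, fromBlocks_multiply, fromBlocks_multiply]
      have hg'Q : D.g' * Q = Q * (L' * U') := by rw [hQeq]; exact O.eq
      have hQc : Q * replicateCol Unit c'' = replicateCol Unit D.cv := by
        rw [← replicateCol_mulVec, hc'', mulVec_mulVec, mul_nonsing_inv Q hQ, one_mulVec]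
      have hrQ : replicateRow Unit D.rv * Q = replicateRow Unit r'' := by
        rw [← replicateRow_vecMul]
      congr 1
      · simp
      · simp [hrQ]
      · simp [hQc]
      · simp only [Matrix.mul_zero, Matrix.zero_mul, zero_add, Matrix.add_mul, Matrix.mul_add,
          Matrix.one_mul, Matrix.mul_one, add_zero]
        rw [← Matrix.mul_assoc Q (replicateCol Unit c''), hQc, hg'Q, add_comm]
        congr 1
        rw [← hrQ, ← Matrix.mul_assoc]
        congr 1
        ext a b
        simp [Matrix.mul_apply, vecMulVec_apply]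
    set P' := (D.P.submatrix id e * B).submatrix id e.symm with hP'
    have hP'eq : g * P' = P' * (LB.submatrix e.symm e.symm * UB.submatrix e.symm e.symm) := by
      rw [submatrix_mul_equiv, hP', submatrix_mul_equiv, ← hcore]
      exact (submatrix_mul g (D.P.submatrix id e * B) id id e.symm Function.bijective_id).symm
    have hP'u : IsUnit P'.det := by
      have : P' = (D.P.submatrix e e * B).submatrix e.symm e.symm := by
        rw [hP']
        ext i j
        simp [Matrix.mul_apply]
      rw [this, det_submatrix_equiv_self, det_mul, det_submatrix_equiv_self, hB,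
        det_fromBlocks_zero₂₁, det_one, one_mul]
      exact D.unit.mul hQ
    set Lb := LB.submatrix e.symm e.symm with hLb
    set Ub := UB.submatrix e.symm e.symm with hUb
    have i0 : e.symm (Sum.inl 0) = Sum.inl () := rfl
    have is : ∀ i : Fin m, e.symm (Sum.inl i.succ) = Sum.inr (Sum.inl i) := fun i => rfl
    have ir : ∀ i : Fin k, e.symm (Sum.inr i) = Sum.inr (Sum.inr i) := fun i => rfl
    have hLbeq : Lb = fromBlocks Lb.toBlocks₁₁ 0 Lb.toBlocks₂₁ O.fact.tail := by
      ext (i | i) (j | j)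
      · rfl
      · cases i using Fin.cases with
        | zero => simp [hLb, hLB, hL', i0, ir]
        | succ i => simp [hLb, hLB, hL', is, ir]
      · rfl
      · simp [hLb, hLB, hL', ir]
    have hUbeq : Ub = fromBlocks Ub.toBlocks₁₁ Ub.toBlocks₁₂ 0 1 := by
      ext (i | i) (j | j)
      · rfl
      · rfl
      · cases j using Fin.cases with
        | zero => simp [hUb, hUB, hU', i0, ir]
        | succ j => simp [hUb, hUB, hU', is, ir]
      · simp [hUb, hUB, hU', ir]
    have hmain : g * P' = P' * (fromBlocks Lb.toBlocks₁₁ 0 Lb.toBlocks₂₁ O.fact.tail *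
        fromBlocks Ub.toBlocks₁₁ Ub.toBlocks₁₂ 0 1) := by
      rw [← hLbeq, ← hUbeq]; exact hP'eq
    refine ⟨{
      fact := { Lm := Lb.toBlocks₁₁, Um := Ub.toBlocks₁₁, R := Lb.toBlocks₂₁,
                R' := Ub.toBlocks₁₂, tail := O.fact.tail,
                low := ⟨?_, ?_⟩, up := ⟨?_, ?_⟩, lowAdj := ?_, upAdj := ?_,
                sim := ⟨P', hP'u, hmain⟩ }
      det_tail := O.det_tail, ns_tail := O.ns_tail, rk_tail := O.rk_tail,
      P := P', unit := hP'u, eq := hmain, top := ?_ }⟩
    · intro i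
      cases i using Fin.cases with
      | zero => simp [toBlocks₁₁, hLb, hLB, i0]
      | succ i => simp [toBlocks₁₁, hLb, hLB, hL', is, O.fact.low.1 i]
    · intro i j hij
      cases j using Fin.cases with
      | zero => exact absurd hij (by simp)
      | succ j =>
        cases i using Fin.cases with
        | zero => simp [toBlocks₁₁, hLb, hLB, i0, is]
        | succ i =>
          simp [toBlocks₁₁, hLb, hLB, hL', is, O.fact.low.2 i j (Fin.succ_lt_succ_iff.1 hij)]
    · intro i
      cases i using Fin.cases with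
      | zero => simp [toBlocks₁₁, hUb, hUB, i0]
      | succ i => simp [toBlocks₁₁, hUb, hUB, hU', is, O.fact.up.1 i]
    · intro i j hij
      cases i using Fin.cases with
      | zero => exact absurd hij (by simp)
      | succ i =>
        cases j using Fin.cases with
        | zero => simp [toBlocks₁₁, hUb, hUB, i0, is]
        | succ j =>
          simp [toBlocks₁₁, hUb, hUB, hU', is, O.fact.up.2 i j (Fin.succ_lt_succ_iff.1 hij)]
    · intro i j hij
      cases i using Fin.cases with
      | zero => simp at hij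
      | succ i =>
        cases j using Fin.cases with
        | zero =>
          have hi0 : (i : ℕ) = 0 := by simpa using hij.symm
          have hm : 0 < m := by have := i.2; omega
          obtain ⟨⟨c', hc', hne⟩, -⟩ := O.top hm
          have : c' = c'' := by
            have h2 := congrArg (fun z => O.P⁻¹ *ᵥ z) hc'
            simp only [mulVec_mulVec, nonsing_inv_mul _ O.unit, one_mulVec] at h2
            rw [hc'', hQeq]
            exact h2
          subst this
          rw [show i = (⟨0, hm⟩ : Fin m) from Fin.ext hi0]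
          simp only [toBlocks₁₁, Matrix.of_apply, hLb, hLB, submatrix_apply, is, i0,
            fromBlocks_apply₂₁, replicateCol_apply]
          exact hne
        | succ j =>
          simpa [toBlocks₁₁, hLb, hLB, hL', is] using O.fact.lowAdj i j (by simpa using hij)
    · intro i j hij
      cases j using Fin.cases with
      | zero => simp at hij
      | succ j =>
        cases i using Fin.cases with
        | zero =>
          have hj0 : (j : ℕ) = 0 := by simpa using hij.symm
          have hm : 0 < m := by have := j.2; omega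
          obtain ⟨-, hne⟩ := O.top hm
          rw [show j = (⟨0, hm⟩ : Fin m) from Fin.ext hj0]
          simp only [toBlocks₁₁, Matrix.of_apply, hUb, hUB, submatrix_apply, is, i0,
            fromBlocks_apply₁₂, replicateRow_apply, hr'', hQeq]
          exact hne
        | succ i =>
          simpa [toBlocks₁₁, hUb, hUB, hU', is] using O.fact.upAdj i j (by simpa using hij)
    · intro h
      refine ⟨?_, ?_⟩
      · obtain ⟨x, hx⟩ := D.exists_vec c
        refine ⟨(Sum.elim (fun _ => φ ⬝ᵥ c) (Q⁻¹ *ᵥ x)) ∘ e.symm, ?_, by simpa [i0] using hφc⟩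
        conv_rhs => rw [hx]
        rw [hP', submatrix_mulVec_equiv, Function.comp_assoc, Equiv.symm_symm,
          Equiv.symm_comp_self, Function.comp_id, Function.comp_id, Frame.vec, ← mulVec_mulVec]
        congr 1
        rw [hB, fromBlocks_mulVec]
        simp [mulVec_mulVec, mul_nonsing_inv _ hQ]
      · have hcol : ∀ i, P' i (Sum.inl (⟨0, h⟩ : Fin (m + 1))) = v i := by
          intro i
          rw [show (⟨0, h⟩ : Fin (m + 1)) = 0 from rfl]
          simp [hP', Matrix.mul_apply, Fintype.sum_sum_type, hB, i0, D.col]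
        simp only [vecMul, dotProduct, hcol]
        simpa [dotProduct] using hrv

end Cfsg.Agent.SLComm
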