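import Mathlib

/-!
Commutators in special linear groups at the level of matrices.
-/

set_option autoImplicit false

namespace Cfsg.Agent.SLComm

open Matrix

variable {F : Type*} [Field F]

/-- `g` is a commutator of two matrices of determinant one. -/
def IsComm {ι : Type*} [Fintype ι] [DecidableEq ι] (g : Matrix ι ι F) : Prop :=
  ∃ a b : Matrix ι ι F, a.det = 1 ∧ b.det = 1 ∧ g * (b * a) = a * b

/-- `A` and `B` are similar: `A * P = P * B` with `P` invertible. -/
def Sim {ι : Type*} [Fintype ι] [DecidableEq ι] (A B : Matrix ι ι F) : Prop :=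
  ∃ P : Matrix ι ι F, IsUnit P.det ∧ A * P = P * B

section

variable {ι κ : Type*} [Fintype ι] [DecidableEq ι] [Fintype κ] [DecidableEq κ]

theorem isComm_one : IsComm (1 : Matrix ι ι F) :=
  ⟨1, 1, det_one, det_one, by simp⟩

theorem sim_refl (A : Matrix ι ι F) : Sim A A := ⟨1, by simp, by simp⟩

theorem sim_symm {A B : Matrix ι ι F} (h : Sim A B) : Sim B A := by
  obtain ⟨P, hP, h⟩ := h
  refine ⟨P⁻¹, isUnit_nonsing_inv_det P hP, ?_⟩
  calc B * P⁻¹ = P⁻¹ * (P * B) * P⁻¹ := by
        rw [nonsing_inv_mul_cancel_left P B hP]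
    _ = P⁻¹ * A := by
        rw [← h, ← Matrix.mul_assoc, mul_nonsing_inv_cancel_right P _ hP]

theorem sim_trans {A B C : Matrix ι ι F} (h₁ : Sim A B) (h₂ : Sim B C) : Sim A C := by
  obtain ⟨P, hP, h₁⟩ := h₁
  obtain ⟨Q, hQ, h₂⟩ := h₂
  refine ⟨P * Q, by rw [det_mul]; exact hP.mul hQ, ?_⟩
  rw [← Matrix.mul_assoc, h₁, Matrix.mul_assoc, h₂, Matrix.mul_assoc]

theorem sim_reindex {A B : Matrix ι ι F} (e : ι ≃ κ) (h : Sim A B) :
    Sim (reindex e e A) (reindex e e B) := by
  obtain ⟨P, hP, h⟩ := h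
  refine ⟨reindex e e P, by rw [det_reindex_self]; exact hP, ?_⟩
  simp only [reindex_apply, submatrix_mul_equiv]
  rw [h]

theorem isComm_reindex (e : ι ≃ κ) {g : Matrix ι ι F} (h : IsComm g) :
    IsComm (reindex e e g) := by
  obtain ⟨a, b, ha, hb, h⟩ := h
  refine ⟨reindex e e a, reindex e e b, by rw [det_reindex_self, ha], by rw [det_reindex_self, hb],
    ?_⟩
  simp only [reindex_apply, submatrix_mul_equiv]
  rw [h]

theorem det_eq_of_sim {A B : Matrix ι ι F} (h : Sim A B) : A.det = B.det := by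
  obtain ⟨P, hP, h⟩ := h
  have h2 := congrArg Matrix.det h
  rw [det_mul, det_mul, mul_comm P.det] at h2
  exact hP.mul_right_cancel h2

theorem isComm_of_sim {g h : Matrix ι ι F} (hs : Sim g h) (hh : IsComm h) : IsComm g := by
  obtain ⟨P, hP, hs⟩ := hs
  obtain ⟨a, b, ha, hb, hab⟩ := hh
  refine ⟨P * a * P⁻¹, P * b * P⁻¹, ?_, ?_, ?_⟩
  · rw [det_conj ((isUnit_iff_isUnit_det P).2 hP), ha]
  · rw [det_conj ((isUnit_iff_isUnit_det P).2 hP), hb]
  · have e : ∀ x y : Matrix ι ι F, P * x * P⁻¹ * (P * y * P⁻¹) = P * (x * y) * P⁻¹ := by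
      intro x y
      simp only [Matrix.mul_assoc]
      rw [nonsing_inv_mul_cancel_left P (y * P⁻¹) hP]
    rw [e, e, ← hab]
    calc g * (P * (b * a) * P⁻¹) = g * P * (b * a) * P⁻¹ := by simp only [Matrix.mul_assoc]
      _ = P * (h * (b * a)) * P⁻¹ := by rw [hs]; simp only [Matrix.mul_assoc]

theorem isComm_fromBlocks {g : Matrix ι ι F} {h : Matrix κ κ F} (hg : IsComm g) (hh : IsComm h) :
    IsComm (fromBlocks g 0 0 h) := by
  obtain ⟨a, b, ha, hb, hab⟩ := hg
  obtain ⟨c, d, hc, hd, hcd⟩ := hh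
  refine ⟨fromBlocks a 0 0 c, fromBlocks b 0 0 d, ?_, ?_, ?_⟩
  · rw [det_fromBlocks_zero₂₁, ha, hc, one_mul]
  · rw [det_fromBlocks_zero₂₁, hb, hd, one_mul]
  · simp [fromBlocks_multiply, hab, hcd]

/-- The key criterion: `g = B U'⁻¹` with `B` and `U'` conjugate by a matrix whose determinant can
be corrected inside the centraliser of their common normal form. -/
theorem isComm_of_conj {g B U' N : Matrix ι ι F} (hg : g * U' = B) (hB1 : B.det = 1)
    (hB : Sim B N) (hU : Sim U' N)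
    (hz : ∀ t : F, t ≠ 0 → ∃ Z : Matrix ι ι F, Z * N = N * Z ∧ Z.det = t) : IsComm g := by
  obtain ⟨P, hP, hB'⟩ := hB
  obtain ⟨Q, hQ, hU'⟩ := hU
  have hPne : P.det ≠ 0 := hP.ne_zero
  have hQne : Q.det ≠ 0 := hQ.ne_zero
  obtain ⟨Z, hZ, hZd⟩ := hz (Q.det / P.det) (div_ne_zero hQne hPne)
  set x := P * Z * Q⁻¹ with hx
  have hxd : x.det = 1 := by
    rw [hx, det_mul, det_mul, hZd, det_nonsing_inv, Ring.inverse_eq_inv']
    field_simp
  have hxu : IsUnit x.det := by rw [hxd]; exact isUnit_one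
  have hxB : x * U' = B * x := by
    have hU2 : Q⁻¹ * U' = N * Q⁻¹ := by
      calc Q⁻¹ * U' = Q⁻¹ * (U' * Q) * Q⁻¹ := by
            rw [Matrix.mul_assoc, mul_nonsing_inv_cancel_right Q U' hQ]
        _ = N * Q⁻¹ := by rw [hU', nonsing_inv_mul_cancel_left Q N hQ]
    calc x * U' = P * Z * (Q⁻¹ * U') := by rw [hx]; simp only [Matrix.mul_assoc]
      _ = P * (Z * N) * Q⁻¹ := by rw [hU2]; simp only [Matrix.mul_assoc]
      _ = (P * N) * Z * Q⁻¹ := by rw [hZ]; simp only [Matrix.mul_assoc]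
      _ = B * x := by rw [← hB', hx]; simp only [Matrix.mul_assoc]
  refine ⟨B, x⁻¹, hB1, by rw [det_nonsing_inv, hxd]; simp, ?_⟩
  have h3 : x⁻¹ * B = U' * x⁻¹ := by
    calc x⁻¹ * B = x⁻¹ * (B * x) * x⁻¹ := by
          rw [Matrix.mul_assoc, mul_nonsing_inv_cancel_right x B hxu]
      _ = U' * x⁻¹ := by rw [← hxB, nonsing_inv_mul_cancel_left x U' hxu]
  rw [h3, ← Matrix.mul_assoc, hg]

end

/-- Sylvester: a block triangular matrix with spectrally separated diagonal blocks. -/
theorem exists_sylvester [Finite F] {m k : Type*} [Fintype m] [DecidableEq m] [Fintype k]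
    [DecidableEq k] (T : Matrix m m F) (A : Matrix k k F) (N : ℕ) (hT : (T - 1) ^ N = 0)
    (hA : (A - 1).det ≠ 0) (R : Matrix k m F) : ∃ X : Matrix k m F, A * X - X * T = R := by
  let f : Matrix k m F →+ Matrix k m F :=
    { toFun := fun X => A * X - X * T
      map_zero' := by simp
      map_add' := fun X Y => by rw [Matrix.mul_add, Matrix.add_mul]; abel }
  have hf : Function.Injective f := by
    rw [injective_iff_map_eq_zero]
    intro X hX
    have h1 : (A - 1) * X = X * (T - 1) := by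
      have h0 : A * X - X * T = 0 := hX
      rw [Matrix.sub_mul, Matrix.mul_sub, Matrix.one_mul, Matrix.mul_one, sub_eq_zero.1 h0]
    have h2 : ∀ j : ℕ, (A - 1) ^ j * X = X * (T - 1) ^ j := by
      intro j
      induction j with
      | zero => simp
      | succ j ih =>
        rw [pow_succ, pow_succ, Matrix.mul_assoc, h1, ← Matrix.mul_assoc, ih, Matrix.mul_assoc]
    have h3 : (A - 1) ^ N * X = 0 := by rw [h2 N, hT, Matrix.mul_zero]
    have hu : IsUnit ((A - 1) ^ N).det := by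
      rw [det_pow]; exact (isUnit_iff_ne_zero.2 hA).pow N
    calc X = ((A - 1) ^ N)⁻¹ * ((A - 1) ^ N * X) := (nonsing_inv_mul_cancel_left _ X hu).symm
      _ = 0 := by rw [h3, Matrix.mul_zero]
  exact (Finite.injective_iff_surjective.1 hf) R

/-- Sylvester, in the mirrored shape. -/
theorem exists_sylvester' [Finite F] {m k : Type*} [Fintype m] [DecidableEq m] [Fintype k]
    [DecidableEq k] (T : Matrix m m F) (A : Matrix k k F) (N : ℕ) (hT : (T - 1) ^ N = 0)
    (hA : (A - 1).det ≠ 0) (R : Matrix m k F) : ∃ X : Matrix m k F, T * X - X * A = R := by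
  have hT' : (T.transpose - 1) ^ N = 0 := by
    rw [show T.transpose - 1 = (T - 1).transpose by simp, ← transpose_pow, hT, transpose_zero]
  have hA' : (A.transpose - 1).det ≠ 0 := by
    rw [show A.transpose - 1 = (A - 1).transpose by simp, det_transpose]; exact hA
  obtain ⟨X, hX⟩ := exists_sylvester T.transpose A.transpose N hT' hA' (-R.transpose)
  refine ⟨X.transpose, ?_⟩
  have h := congrArg Matrix.transpose hX
  simp only [transpose_sub, transpose_mul, transpose_transpose, transpose_neg] at h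
  rw [show T * X.transpose - X.transpose * A = -(X.transpose * A - T * X.transpose) by abel, h,
    neg_neg]

theorem sim_lower [Finite F] {m k : Type*} [Fintype m] [DecidableEq m] [Fintype k] [DecidableEq k]
    (T : Matrix m m F) (A : Matrix k k F) (N : ℕ) (hT : (T - 1) ^ N = 0)
    (hA : (A - 1).det ≠ 0) (R : Matrix k m F) :
    Sim (fromBlocks T 0 R A) (fromBlocks T 0 0 A) := by
  obtain ⟨X, hX⟩ := exists_sylvester T A N hT hA (-R)
  refine ⟨fromBlocks 1 0 X 1, ?_, ?_⟩
  · rw [det_fromBlocks_zero₁₂]; simp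
  · have h : R + A * X = X * T := by
      have h := eq_add_of_sub_eq hX
      rw [h]; abel
    simp [fromBlocks_multiply, h]

theorem sim_upper [Finite F] {m k : Type*} [Fintype m] [DecidableEq m] [Fintype k] [DecidableEq k]
    (T : Matrix m m F) (A : Matrix k k F) (N : ℕ) (hT : (T - 1) ^ N = 0)
    (hA : (A - 1).det ≠ 0) (R : Matrix m k F) :
    Sim (fromBlocks T R 0 A) (fromBlocks T 0 0 A) := by
  obtain ⟨X, hX⟩ := exists_sylvester' T A N hT hA (-R)
  refine ⟨fromBlocks 1 X 0 1, ?_, ?_⟩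
  · rw [det_fromBlocks_zero₂₁]; simp
  · have h : T * X + R = X * A := by
      have h := eq_add_of_sub_eq hX
      rw [h]; abel
    simp [fromBlocks_multiply, h]

theorem sim_fromBlocks {m k : Type*} [Fintype m] [DecidableEq m] [Fintype k] [DecidableEq k]
    {T T' : Matrix m m F} {A A' : Matrix k k F} (hT : Sim T T') (hA : Sim A A') :
    Sim (fromBlocks T 0 0 A) (fromBlocks T' 0 0 A') := by
  obtain ⟨P, hP, hT⟩ := hT
  obtain ⟨Q, hQ, hA⟩ := hA
  refine ⟨fromBlocks P 0 0 Q, ?_, ?_⟩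
  · rw [det_fromBlocks_zero₂₁]; exact hP.mul hQ
  · simp [fromBlocks_multiply, hT, hA]

end Cfsg.Agent.SLComm
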