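import Mathlib

/-!
Counting linear functionals with prescribed values.
-/

set_option autoImplicit false

namespace Cfsg.Agent.SLComm

open Matrix Module

variable {F : Type*} [Field F] [Fintype F] {ι : Type*} [Fintype ι]

/-- Number of functionals with prescribed values on an independent family. -/
theorem ncard_functional_eq {k : ℕ} (w : Fin k → ι → F) (hw : LinearIndependent F w)
    (a : Fin k → F) :
    {φ : ι → F | ∀ i, w i ⬝ᵥ φ = a i}.ncard = Fintype.card F ^ (Fintype.card ι - k) ∧
      k ≤ Fintype.card ι := by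
  classical
  let M : Matrix (Fin k) ι F := Matrix.of w
  have hr : M.rank = k := by
    have : LinearIndependent F M.row := hw
    rw [this.rank_matrix, Fintype.card_fin]
  let Φ : (ι → F) →ₗ[F] (Fin k → F) := M.mulVecLin
  have hsurj : Function.Surjective Φ := by
    rw [← LinearMap.range_eq_top]
    apply Submodule.eq_top_of_finrank_eq
    rw [finrank_fintype_fun_eq_card, Fintype.card_fin]
    exact hr
  obtain ⟨φ₀, hφ₀⟩ := hsurj a
  have hset : {φ : ι → F | ∀ i, w i ⬝ᵥ φ = a i} = (fun x => φ₀ + x) '' (Φ.ker : Set (ι → F)) := by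
    ext φ
    constructor
    · intro h
      refine ⟨φ - φ₀, ?_, by simp⟩
      rw [SetLike.mem_coe, LinearMap.mem_ker, map_sub, hφ₀, sub_eq_zero]
      exact funext h
    · rintro ⟨x, hx, rfl⟩ i
      have h2 : Φ (φ₀ + x) = a := by rw [map_add, LinearMap.mem_ker.1 hx, add_zero, hφ₀]
      exact congrFun h2 i
  have hfin := Φ.finrank_range_add_finrank_ker
  rw [LinearMap.range_eq_top.2 hsurj, finrank_top, finrank_fintype_fun_eq_card,
    finrank_fintype_fun_eq_card, Fintype.card_fin] at hfin
  refine ⟨?_, by omega⟩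
  rw [hset, Set.ncard_image_of_injective _ (add_right_injective φ₀), ← Nat.card_coe_set_eq]
  have h3 : Nat.card (Φ.ker) = Fintype.card F ^ finrank F (Φ.ker) := by
    rw [Module.natCard_eq_pow_finrank (K := F), Nat.card_eq_fintype_card]
  rw [show Fintype.card ι - k = finrank F (Φ.ker) by omega, ← h3]
  rfl

/-- The affine space of `φ` with `φ v = 1`, `φ d = 0`. -/
def adm (v d : ι → F) : Set (ι → F) := {φ | v ⬝ᵥ φ = 1 ∧ d ⬝ᵥ φ = 0}

theorem ncard_adm {v d : ι → F} (hvd : LinearIndependent F ![v, d]) :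
    (adm v d).ncard = Fintype.card F ^ (Fintype.card ι - 2) := by
  have h := (ncard_functional_eq ![v, d] hvd ![1, 0]).1
  rw [← h]
  congr 1
  ext φ
  simp [adm, Fin.forall_fin_two]

theorem ncard_adm_one {v d x : ι → F} (hvd : LinearIndependent F ![v, d])
    (hx : x ∉ Submodule.span F {d}) :
    {φ ∈ adm v d | x ⬝ᵥ φ = 0}.ncard ≤ Fintype.card F ^ (Fintype.card ι - 3) := by
  by_cases h : LinearIndependent F ![v, d, x]
  · rw [← (ncard_functional_eq ![v, d, x] h ![1, 0, 0]).1]
    apply le_of_eq
    congr 1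
    ext φ
    simp [adm, Fin.forall_fin_succ, and_assoc]
  · have hmem : x ∈ Submodule.span F (Set.range ![v, d]) := by
      by_contra hc
      apply h
      have e : ![v, d, x] = Fin.snoc ![v, d] x := by
        funext i
        fin_cases i <;> rfl
      rw [e, linearIndependent_finSnoc]
      exact ⟨hvd, hc⟩
    simp only [Matrix.range_cons, Matrix.range_empty, Set.union_empty, Set.singleton_union,
      Submodule.mem_span_pair] at hmem
    obtain ⟨α, β, rfl⟩ := hmem
    have hα : α ≠ 0 := by
      rintro rfl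
      exact hx (Submodule.mem_span_singleton.2 ⟨β, by simp⟩)
    rw [show {φ ∈ adm v d | (α • v + β • d) ⬝ᵥ φ = 0} = ∅ by
      ext φ
      simp only [Set.mem_setOf_eq, Set.mem_empty_iff_false, iff_false, not_and]
      rintro ⟨h1, h2⟩
      simp [h1, h2, hα]]
    simp

theorem ncard_adm_two {v d x y : ι → F} (h : LinearIndependent F ![v, d, x, y]) :
    {φ ∈ adm v d | x ⬝ᵥ φ = 0 ∧ y ⬝ᵥ φ = 0}.ncard ≤
      Fintype.card F ^ (Fintype.card ι - 4) := by
  rw [← (ncard_functional_eq ![v, d, x, y] h ![1, 0, 0, 0]).1]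
  apply le_of_eq
  congr 1
  ext φ
  simp [adm, Fin.forall_fin_succ, and_assoc]

/-- A vector space over a field with at least three elements is not the union of three proper
subspaces. -/
theorem exists_not_mem_three {V : Type*} [AddCommGroup V] [Module F V]
    (hq : 3 ≤ Fintype.card F) {A B C : Submodule F V} (hA : A ≠ ⊤) (hB : B ≠ ⊤) (hC : C ≠ ⊤) :
    ∃ v, v ∉ A ∧ v ∉ B ∧ v ∉ C := by
  classical
  obtain ⟨v, hvA, hvB⟩ : ∃ v, v ∉ A ∧ v ∉ B := by
    obtain ⟨a, ha⟩ := SetLike.exists_not_mem_of_ne_top A hA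
    obtain ⟨b, hb⟩ := SetLike.exists_not_mem_of_ne_top B hB
    by_cases h1 : a ∈ B
    · by_cases h2 : b ∈ A
      · refine ⟨a + b, fun h => ha ?_, fun h => hb ?_⟩
        · simpa using A.sub_mem h h2
        · simpa using B.sub_mem h h1
      · exact ⟨b, h2, hb⟩
    · exact ⟨a, ha, h1⟩
  by_cases hvC : v ∈ C
  swap
  · exact ⟨v, hvA, hvB, hvC⟩
  obtain ⟨u, hu⟩ := SetLike.exists_not_mem_of_ne_top C hC
  by_contra hcon
  push_neg at hcon
  have key : ∀ t : F, u + t • v ∈ A ∨ u + t • v ∈ B := by
    intro t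
    by_contra h
    push_neg at h
    exact hu (by simpa using C.sub_mem (hcon _ h.1 h.2) (C.smul_mem t hvC))
  have uniq : ∀ (S : Submodule F V), v ∉ S → ∀ s t : F, u + s • v ∈ S → u + t • v ∈ S → s = t := by
    intro S hS s t h1 h2
    by_contra hne
    apply hS
    have h3 : (s - t) • v ∈ S := by
      have := S.sub_mem h1 h2
      simpa [sub_smul] using this
    exact (S.smul_mem_iff (sub_ne_zero.2 hne)).1 h3
  have hcard : Fintype.card F ≤ 2 := by
    rw [← Fintype.card_bool]
    apply Fintype.card_le_of_injective (fun t : F => decide (u + t • v ∈ A))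
    intro s t hst
    simp only [decide_eq_decide] at hst
    by_cases h : u + s • v ∈ A
    · exact uniq A hvA s t h (hst.1 h)
    · exact uniq B hvB s t ((key s).resolve_left h) ((key t).resolve_left fun h' => h (hst.2 h'))
  omega

end Cfsg.Agent.SLComm
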