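import Cfsg.Agent.SLComm.Basic

/-!
Unitriangular matrices with non-zero first off-diagonal are similar to a Jordan block.
-/

set_option autoImplicit false

namespace Cfsg.Agent.SLComm

open Matrix

variable {F : Type*} [Field F]

/-- Lower unitriangular. -/
def Low {m : ℕ} (T : Matrix (Fin m) (Fin m) F) : Prop :=
  (∀ i, T i i = 1) ∧ ∀ i j : Fin m, i < j → T i j = 0

/-- Upper unitriangular. -/
def Up {m : ℕ} (T : Matrix (Fin m) (Fin m) F) : Prop :=
  (∀ i, T i i = 1) ∧ ∀ i j : Fin m, j < i → T i j = 0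

/-- The unipotent Jordan block, lower form. -/
def jordan (F : Type*) [Field F] (m : ℕ) : Matrix (Fin m) (Fin m) F :=
  fun i j => if i = j then 1 else if (j : ℕ) + 1 = i then 1 else 0

theorem sub_one_apply_of_low {m : ℕ} {T : Matrix (Fin m) (Fin m) F} (h : Low T) {i j : Fin m}
    (hij : (i : ℕ) < j + 1) : (T - 1) i j = 0 := by
  rcases (Nat.lt_succ_iff.1 hij).lt_or_eq with h1 | h1
  · have h2 : i < j := h1
    simp [Matrix.sub_apply, h.2 i j h2, h2.ne]
  · obtain rfl := Fin.ext h1
    simp [Matrix.sub_apply, h.1 i]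

theorem low_pow_apply {m : ℕ} {T : Matrix (Fin m) (Fin m) F} (h : Low T) (n : ℕ) :
    ∀ i j : Fin m, (i : ℕ) < j + n → ((T - 1) ^ n) i j = 0 := by
  induction n with
  | zero =>
    intro i j hij
    rw [pow_zero, one_apply_ne (Fin.ne_of_lt hij)]
  | succ n ih =>
    intro i j hij
    rw [pow_succ', Matrix.mul_apply]
    refine Finset.sum_eq_zero fun l _ => ?_
    by_cases hl : (i : ℕ) < l + 1
    · rw [sub_one_apply_of_low h hl, zero_mul]
    · rw [ih l j (by omega), mul_zero]

theorem low_pow_eq_zero {m : ℕ} {T : Matrix (Fin m) (Fin m) F} (h : Low T) :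
    (T - 1) ^ m = 0 := by
  ext i j
  exact low_pow_apply h m i j (by omega)

theorem low_pow_leading {m : ℕ} {T : Matrix (Fin m) (Fin m) F} (h : Low T)
    (hs : ∀ i j : Fin m, (j : ℕ) + 1 = i → T i j ≠ 0) (z : Fin m) (hz : (z : ℕ) = 0) :
    ∀ n (i : Fin m), (i : ℕ) = n → ((T - 1) ^ n) i z ≠ 0 := by
  intro n
  induction n with
  | zero =>
    intro i hi
    obtain rfl : i = z := Fin.ext (by omega)
    simp
  | succ n ih =>
    intro i hi
    have hn : n < m := by omega
    rw [pow_succ', Matrix.mul_apply, Finset.sum_eq_single (⟨n, hn⟩ : Fin m)]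
    · refine mul_ne_zero ?_ (ih _ rfl)
      have h2 : (⟨n, hn⟩ : Fin m) < i := by
        change n < (i : ℕ)
        omega
      simp only [Matrix.sub_apply, one_apply_ne h2.ne', sub_zero]
      exact hs i _ (by simp; omega)
    · intro l _ hl
      by_cases h1 : (i : ℕ) < l + 1
      · rw [sub_one_apply_of_low h h1, zero_mul]
      · have h3 : (l : ℕ) ≠ n := fun e => hl (Fin.ext e)
        rw [low_pow_apply h n l z (by omega), mul_zero]
    · intro h; exact absurd (Finset.mem_univ _) h

theorem sim_jordan {m : ℕ} {T : Matrix (Fin m) (Fin m) F} (h : Low T)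
    (hs : ∀ i j : Fin m, (j : ℕ) + 1 = i → T i j ≠ 0) : Sim T (jordan F m) := by
  rcases Nat.eq_zero_or_pos m with rfl | hm
  · exact ⟨1, by simp, by ext i; exact i.elim0⟩
  let z : Fin m := ⟨0, hm⟩
  let P : Matrix (Fin m) (Fin m) F := fun i k => ((T - 1) ^ (k : ℕ)) i z
  refine ⟨P, ?_, ?_⟩
  · have hP : P.BlockTriangular OrderDual.toDual := by
      intro i j hij
      exact low_pow_apply h j i z (by
        have : i < j := hij
        simpa [z] using this)
    rw [det_of_lowerTriangular P hP]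
    exact isUnit_iff_ne_zero.2 (Finset.prod_ne_zero_iff.2 fun i _ =>
      low_pow_leading h hs z rfl i i rfl)
  · ext i k
    have hL : (T * P) i k = ((T - 1) ^ ((k : ℕ) + 1)) i z + ((T - 1) ^ (k : ℕ)) i z := by
      have : T * (T - 1) ^ (k : ℕ) = (T - 1) ^ ((k : ℕ) + 1) + (T - 1) ^ (k : ℕ) := by
        rw [pow_succ', Matrix.sub_mul, Matrix.one_mul]; abel
      rw [← Matrix.add_apply, ← this]
      rfl
    rw [hL, Matrix.mul_apply]
    by_cases hk : (k : ℕ) + 1 < m
    · have hne : k ≠ (⟨k + 1, hk⟩ : Fin m) := fun e => by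
        have := congrArg Fin.val e
        simp at this
      rw [Finset.sum_eq_add (a := (⟨k + 1, hk⟩ : Fin m)) (b := k) hne.symm]
      · simp [P, jordan, hne.symm]
      · intro l _ hl
        have h1 : ¬ (k : ℕ) + 1 = l := fun e => hl.1 (Fin.ext e.symm)
        simp [jordan, hl.2, h1]
      · intro h; exact absurd (Finset.mem_univ _) h
      · intro h; exact absurd (Finset.mem_univ _) h
    · rw [Finset.sum_eq_single k]
      · rw [low_pow_apply h ((k : ℕ) + 1) i z (by simp [z]; omega)]
        simp [P, jordan]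
      · intro l _ hl
        have h1 : ¬ (k : ℕ) + 1 = l := fun e => hk (e ▸ l.2)
        simp [jordan, hl, h1]
      · intro h; exact absurd (Finset.mem_univ _) h

theorem sim_submatrix {ι : Type*} [Fintype ι] [DecidableEq ι] (A : Matrix ι ι F) (e : ι ≃ ι) :
    Sim A (A.submatrix e e) := by
  refine ⟨(1 : Matrix ι ι F).submatrix id e, ?_, ?_⟩
  · rw [show ((1 : Matrix ι ι F).submatrix id e) = (1 : Matrix ι ι F).submatrix id ⇑e from rfl,
      det_permute']
    simp only [det_one, mul_one]
    exact (Equiv.Perm.sign e).isUnit.map (Int.castRingHom F)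
  · ext i j
    simp only [Matrix.mul_apply, submatrix_apply, Matrix.one_apply, id, mul_ite, mul_one, mul_zero,
      ite_mul, one_mul, zero_mul]
    rw [Finset.sum_eq_single (e j) (fun b _ hb => if_neg hb)
        (fun h => absurd (Finset.mem_univ _) h),
      Finset.sum_eq_single (e.symm i)
        (fun b _ hb => if_neg fun h => hb (by rw [h, Equiv.symm_apply_apply]))
        (fun h => absurd (Finset.mem_univ _) h)]
    simp

theorem low_of_up {m : ℕ} {T : Matrix (Fin m) (Fin m) F} (h : Up T) :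
    Low (T.submatrix Fin.revPerm Fin.revPerm) :=
  ⟨fun i => h.1 _, fun i j hij => h.2 _ _ (Fin.rev_lt_rev.2 hij)⟩

theorem up_inv {m : ℕ} {U : Matrix (Fin m) (Fin m) F} (h : Up U) :
    IsUnit U.det ∧ Up U⁻¹ ∧
      ∀ i j : Fin m, (i : ℕ) + 1 = j → U⁻¹ i j = - U i j := by
  have hb : U.BlockTriangular id := fun i j hij => h.2 i j hij
  have hdet : U.det = 1 := by
    rw [det_of_upperTriangular hb]
    exact Finset.prod_eq_one fun i _ => h.1 i
  have hu : IsUnit U.det := by rw [hdet]; exact isUnit_one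
  haveI := invertibleOfIsUnitDet U hu
  have hbi : (U⁻¹).BlockTriangular id := blockTriangular_inv_of_blockTriangular hb
  have hlow : ∀ i j : Fin m, j < i → U⁻¹ i j = 0 := fun i j hij => hbi hij
  have hdiag : ∀ i, U⁻¹ i i = 1 := by
    intro i
    have h1 : (U * U⁻¹) i i = 1 := by rw [mul_nonsing_inv U hu]; simp
    rw [Matrix.mul_apply, Finset.sum_eq_single i] at h1
    · rwa [h.1 i, one_mul] at h1
    · intro l _ hl
      rcases lt_or_gt_of_ne hl with hl | hl
      · rw [h.2 i l hl, zero_mul]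
      · rw [hlow l i hl, mul_zero]
    · intro h; exact absurd (Finset.mem_univ _) h
  refine ⟨hu, ⟨hdiag, hlow⟩, fun i j hij => ?_⟩
  have hne : i ≠ j := fun e => by rw [e] at hij; omega
  have h1 : (U * U⁻¹) i j = 0 := by rw [mul_nonsing_inv U hu]; simp [hne]
  rw [Matrix.mul_apply, Finset.sum_eq_add (a := i) (b := j) hne] at h1
  · rw [h.1 i, one_mul, hdiag j, mul_one] at h1
    exact eq_neg_of_add_eq_zero_left h1
  · intro l _ hl
    rcases lt_or_gt_of_ne hl.1 with h2 | h2
    · rw [h.2 i l h2, zero_mul]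
    · have h3 : j < l := by
        have : (i : ℕ) < l := h2
        have : (j : ℕ) ≠ l := fun e => hl.2 (Fin.ext e.symm)
        change (j : ℕ) < l
        omega
      rw [hlow l j h3, mul_zero]
  · intro h; exact absurd (Finset.mem_univ _) h
  · intro h; exact absurd (Finset.mem_univ _) h

theorem sim_jordan_up {m : ℕ} {U : Matrix (Fin m) (Fin m) F} (h : Up U)
    (hs : ∀ i j : Fin m, (i : ℕ) + 1 = j → U i j ≠ 0) :
    Sim U⁻¹ (jordan F m) ∧ (U⁻¹ - 1) ^ m = 0 := by
  obtain ⟨-, hi, hadj⟩ := up_inv h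
  have hl := low_of_up hi
  have hs' : ∀ i j : Fin m, (j : ℕ) + 1 = i →
      U⁻¹.submatrix Fin.revPerm Fin.revPerm i j ≠ 0 := by
    intro i j hij
    have e : ((Fin.rev i : Fin m) : ℕ) + 1 = ((Fin.rev j : Fin m) : ℕ) := by
      simp only [Fin.val_rev]; omega
    simpa [submatrix_apply, hadj _ _ e] using hs _ _ e
  refine ⟨sim_trans (sim_submatrix _ _) (sim_jordan hl hs'), ?_⟩
  have hz := low_pow_eq_zero hl
  have e : U⁻¹.submatrix Fin.revPerm Fin.revPerm - 1 =
      (U⁻¹ - 1).submatrix Fin.revPerm Fin.revPerm := by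
    ext i j
    simp [Matrix.one_apply]
  have e2 : ∀ n : ℕ, ((U⁻¹ - 1).submatrix Fin.revPerm Fin.revPerm) ^ n =
      ((U⁻¹ - 1) ^ n).submatrix Fin.revPerm Fin.revPerm := by
    intro n
    induction n with
    | zero => simp
    | succ n ih => rw [pow_succ, pow_succ, ih, submatrix_mul_equiv]
  rw [e, e2] at hz
  ext i j
  have := congrFun (congrFun hz (Fin.rev i)) (Fin.rev j)
  simpa using this

end Cfsg.Agent.SLComm
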