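import Cfsg.Agent.SLComm.Basic

/-!
The frame attached to a vector and a functional, and the Schur complement.
-/

set_option autoImplicit false

namespace Cfsg.Agent.SLComm

open Matrix

variable {F : Type*} [Field F] {ι κ : Type*} [Fintype ι] [DecidableEq ι] [Fintype κ]
  [DecidableEq κ]

theorem exists_frame_matrix (j₀ : ι) (v φ : ι → F) (h : v ⬝ᵥ φ = 1) :
    ∃ P : Matrix ι ι F, IsUnit P.det ∧ (∀ i, P i j₀ = v i) ∧
      φ ᵥ* P = Pi.single j₀ 1 := by
  obtain ⟨j, hj⟩ : ∃ j, v j ≠ 0 := by
    by_contra hc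
    push_neg at hc
    have : v = 0 := funext hc
    simp [this] at h
  let P0 : Matrix ι ι F := fun i l => if l = j then v i else (1 : Matrix ι ι F) i l - φ l * v i
  have hφP : φ ᵥ* P0 = Pi.single j 1 := by
    funext l
    by_cases hl : l = j
    · subst hl
      simp [vecMul, dotProduct, P0]
      rw [dotProduct_comm] at h
      exact h
    · simp only [vecMul, dotProduct, P0, hl, if_false, mul_sub, Finset.sum_sub_distrib,
        Pi.single_eq_of_ne hl]
      rw [show ∑ x, φ x * (φ l * v x) = φ l * (φ ⬝ᵥ v) by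
        simp only [dotProduct, Finset.mul_sum]; exact Finset.sum_congr rfl fun x _ => by ring]
      rw [dotProduct_comm, h]
      simp [Matrix.one_apply]
  have hdet : P0.det ≠ 0 := by
    intro h0
    obtain ⟨x, hx0, hx⟩ := exists_mulVec_eq_zero_iff.2 h0
    apply hx0
    have h1 : x j = 0 := by
      have h2 := dotProduct_mulVec φ P0 x
      rw [hx, hφP] at h2
      simpa using h2.symm
    have h3 : ∀ i, x i - (φ ⬝ᵥ x) * v i = 0 := by
      intro i
      have h4 := congrFun hx i
      have e : ∀ l, P0 i l * x l = (1 : Matrix ι ι F) i l * x l - φ l * x l * v i := by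
        intro l
        by_cases hl : l = j
        · subst hl; simp [h1]
        · simp [P0, hl]; ring
      simp only [mulVec, dotProduct, e, Finset.sum_sub_distrib, ← Finset.sum_mul,
        Pi.zero_apply] at h4
      simpa [Matrix.one_apply, dotProduct] using h4
    have h5 : φ ⬝ᵥ x = 0 := by
      have := h3 j
      rw [h1, zero_sub, neg_eq_zero, mul_eq_zero] at this
      exact this.resolve_right hj
    funext i
    have := h3 i
    simpa [h5] using this
  refine ⟨P0.submatrix id (Equiv.swap j j₀), ?_, ?_, ?_⟩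
  · rw [det_permute']
    exact ((Equiv.Perm.sign _).isUnit.map (Int.castRingHom F)).mul (isUnit_iff_ne_zero.2 hdet)
  · intro i
    rw [submatrix_apply, Equiv.swap_apply_right, id]
    exact if_pos rfl
  · funext l
    have := congrFun hφP (Equiv.swap j j₀ l)
    simp only [vecMul, dotProduct, submatrix_apply, id] at this ⊢
    rw [this]
    rcases eq_or_ne l j₀ with rfl | hl
    · simp
    · rw [Pi.single_eq_of_ne hl, Pi.single_eq_of_ne]
      intro e
      apply hl
      have := congrArg (Equiv.swap j j₀) e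
      simpa using this

/-- A frame: `g Q = Q [[1, rv],[cv, g' + cv rv]]`. -/
structure Frame (g : Matrix ι ι F) (e : Unit ⊕ κ ≃ ι) (v φ : ι → F) where
  P : Matrix ι ι F
  unit : IsUnit P.det
  cv : κ → F
  rv : κ → F
  g' : Matrix κ κ F
  col : ∀ i, P i (e (Sum.inl ())) = v i
  row : φ ᵥ* P = Pi.single (e (Sum.inl ())) 1
  eq : g * P.submatrix id e =
    P.submatrix id e * fromBlocks 1 (replicateRow Unit rv) (replicateCol Unit cv)
      (g' + vecMulVec cv rv)

theorem exists_frame (g : Matrix ι ι F) (e : Unit ⊕ κ ≃ ι) (v φ : ι → F) (h1 : v ⬝ᵥ φ = 1)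
    (h2 : (g - 1) *ᵥ v ⬝ᵥ φ = 0) : Nonempty (Frame g e v φ) := by
  obtain ⟨P, hP, hcol, hrow⟩ := exists_frame_matrix (e (Sum.inl ())) v φ h1
  set H := P⁻¹ * g * P with hH
  set G := H.submatrix e e with hG
  refine ⟨{ P := P, unit := hP, cv := fun x => G (Sum.inr x) (Sum.inl ()),
            rv := fun x => G (Sum.inl ()) (Sum.inr x),
            g' := G.toBlocks₂₂ - vecMulVec (fun x => G (Sum.inr x) (Sum.inl ()))
              (fun x => G (Sum.inl ()) (Sum.inr x)),
            col := hcol, row := hrow, eq := ?_ }⟩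
  have h3 : g * P = P * H := by
    rw [hH, ← Matrix.mul_assoc, ← Matrix.mul_assoc, mul_nonsing_inv P hP, Matrix.one_mul]
  have h11 : G (Sum.inl ()) (Sum.inl ()) = 1 := by
    have h5 : φ ᵥ* (g * P) = φ ᵥ* (P * H) := by rw [h3]
    rw [← vecMul_vecMul, ← vecMul_vecMul, hrow] at h5
    have h6 := congrFun h5 (e (Sum.inl ()))
    rw [single_one_vecMul] at h6
    change H (e (Sum.inl ())) (e (Sum.inl ())) = 1
    simp only [Matrix.row] at h6
    rw [← h6]
    have h7 : (φ ᵥ* g) ⬝ᵥ v = 1 := by
      rw [← dotProduct_mulVec, dotProduct_comm]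
      rw [sub_mulVec, one_mulVec, sub_dotProduct, h1, sub_eq_zero] at h2
      exact h2
    rw [← h7]
    simp [vecMul, dotProduct, hcol]
  have hGeq : fromBlocks 1 (replicateRow Unit fun x => G (Sum.inl ()) (Sum.inr x))
      (replicateCol Unit fun x => G (Sum.inr x) (Sum.inl ()))
      (G.toBlocks₂₂ - vecMulVec (fun x => G (Sum.inr x) (Sum.inl ()))
        (fun x => G (Sum.inl ()) (Sum.inr x)) + vecMulVec (fun x => G (Sum.inr x) (Sum.inl ()))
          (fun x => G (Sum.inl ()) (Sum.inr x))) = G := by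
    rw [sub_add_cancel]
    ext (⟨⟨⟩⟩ | i) (⟨⟨⟩⟩ | j) <;> simp [h11, toBlocks₂₂]
  rw [hGeq, hG, submatrix_mul_equiv P H id e e, ← h3]
  exact (submatrix_mul g P id id e Function.bijective_id).symm

namespace Frame

variable {g : Matrix ι ι F} {e : Unit ⊕ κ ≃ ι} {v φ : ι → F} (D : Frame g e v φ)

/-- The vector with coordinates `(s, x)` in the frame. -/
def vec (s : F) (x : κ → F) : ι → F :=
  D.P.submatrix id e *ᵥ Sum.elim (fun _ => s) x

theorem dot_vec (s : F) (x : κ → F) : φ ⬝ᵥ D.vec s x = s := by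
  rw [vec, dotProduct_mulVec]
  have : φ ᵥ* D.P.submatrix id e = Pi.single (Sum.inl ()) 1 := by
    funext l
    have h := congrFun D.row (e l)
    simp only [vecMul, dotProduct, submatrix_apply, id] at h ⊢
    rw [h]
    rcases l with ⟨⟩ | l
    · simp
    · simp [e.injective.eq_iff]
  rw [this]
  simp

theorem vec_one_zero : D.vec 1 0 = v := by
  funext i
  simp [vec, mulVec, dotProduct, Fintype.sum_sum_type, D.col]

theorem g_mulVec (s : F) (x : κ → F) :
    g *ᵥ D.vec s x = D.vec (s + D.rv ⬝ᵥ x) (s • D.cv + (D.g' *ᵥ x + (D.rv ⬝ᵥ x) • D.cv)) := by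
  rw [vec, mulVec_mulVec, D.eq, ← mulVec_mulVec]
  rw [vec]
  congr 1
  funext l
  rcases l with ⟨⟩ | l
  · simp [mulVec, dotProduct, Fintype.sum_sum_type]
  · simp only [mulVec, dotProduct, Fintype.sum_sum_type, Matrix.vecMulVec_apply, Matrix.add_apply,
      add_mul, Finset.sum_add_distrib, Finset.sum_mul, fromBlocks_apply₂₁, fromBlocks_apply₂₂,
      replicateCol_apply, Sum.elim_inl, Sum.elim_inr, Pi.add_apply, Pi.smul_apply, smul_eq_mul,
      Finset.univ_unique, Finset.sum_singleton]
    rw [mul_comm (D.cv l) s]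
    congr 2
    exact Finset.sum_congr rfl fun z _ => by ring

theorem vec_injective {s t : F} {x y : κ → F} (h : D.vec s x = D.vec t y) : s = t ∧ x = y := by
  have hu : IsUnit (D.P.submatrix e e).det := by
    rw [det_submatrix_equiv_self]; exact D.unit
  have h' : D.P.submatrix e e *ᵥ Sum.elim (fun _ => s) x =
      D.P.submatrix e e *ᵥ Sum.elim (fun _ => t) y := by
    funext l
    exact congrFun h (e l)
  have h2 := congrArg (fun z => (D.P.submatrix e e)⁻¹ *ᵥ z) h'
  simp only [mulVec_mulVec, nonsing_inv_mul _ hu, one_mulVec] at h2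
  exact ⟨congrFun h2 (Sum.inl ()), funext fun k => congrFun h2 (Sum.inr k)⟩

theorem exists_vec (w : ι → F) : ∃ x, w = D.vec (φ ⬝ᵥ w) x := by
  let y := D.P⁻¹ *ᵥ w
  refine ⟨fun k => y (e (Sum.inr k)), ?_⟩
  have hw : w = D.P *ᵥ y := by rw [mulVec_mulVec, mul_nonsing_inv _ D.unit, one_mulVec]
  have hs : φ ⬝ᵥ w = y (e (Sum.inl ())) := by
    conv_lhs => rw [hw]
    rw [dotProduct_mulVec, D.row]
    simp
  rw [hs]
  have : Sum.elim (fun _ => y (e (Sum.inl ()))) (fun k => y (e (Sum.inr k))) = y ∘ e := by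
    funext l
    rcases l with ⟨⟩ | l <;> rfl
  rw [vec, this, submatrix_mulVec_equiv, Function.comp_assoc, Equiv.self_comp_symm]
  simpa using hw

theorem det_g' : D.g'.det = g.det := by
  have hu : IsUnit (D.P.submatrix e e).det := by
    rw [det_submatrix_equiv_self]; exact D.unit
  have h : g.submatrix e e * D.P.submatrix e e = D.P.submatrix e e *
      fromBlocks 1 (replicateRow Unit D.rv) (replicateCol Unit D.cv)
        (D.g' + vecMulVec D.cv D.rv) := by
    rw [submatrix_mul_equiv]
    ext a b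
    have := congrFun (congrFun D.eq (e a)) b
    simpa [Matrix.mul_apply, submatrix_apply] using this
  have h2 := congrArg Matrix.det h
  rw [det_mul, det_mul, det_fromBlocks_one₁₁, det_submatrix_equiv_self, mul_comm _ (det _)] at h2
  have h3 := hu.mul_left_cancel h2
  rw [h3]
  congr 1
  ext a b
  simp [Matrix.mul_apply, Matrix.vecMulVec_apply]

end Frame

end Cfsg.Agent.SLComm
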