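import Cfsg.Agent.SLComm.Basic

/-!
Scalar matrices and transvections are commutators.
-/

set_option autoImplicit false

namespace Cfsg.Agent.SLComm

open Matrix

variable {F : Type*} [Field F]

theorem isComm_transvection {ι : Type*} [Fintype ι] [DecidableEq ι] (u ψ y χ : ι → F)
    (h1 : χ ⬝ᵥ u = 0) (h2 : ψ ⬝ᵥ y = 0) (h3 : χ ⬝ᵥ y = 1) (h4 : ψ ⬝ᵥ u = 0) :
    IsComm (1 + vecMulVec u ψ) := by
  refine ⟨1 + vecMulVec u χ, 1 + vecMulVec y ψ, ?_, ?_, ?_⟩
  · rw [vecMulVec_eq Unit, det_one_add_replicateCol_mul_replicateRow, h1, add_zero]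
  · rw [vecMulVec_eq Unit, det_one_add_replicateCol_mul_replicateRow, h2, add_zero]
  · simp only [Matrix.mul_add, Matrix.add_mul, Matrix.one_mul, Matrix.mul_one,
      vecMulVec_mul_vecMulVec, h2, h3, h4, one_smul, zero_smul, vecMulVec_zero, add_zero,
      Matrix.mul_zero, Matrix.zero_mul]
    abel

theorem det_scalarShift_diag (z : F) (n : ℕ) :
    (diagonal fun i : Fin n => z ^ (i : ℕ)).det = z ^ (∑ i ∈ Finset.range n, i) := by
  rw [det_diagonal, Finset.prod_pow_eq_pow_sum]
  congr 1
  exact Fin.sum_univ_eq_sum_range (fun i => i) n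

/-- Diagonal against a cyclic shift. -/
theorem isComm_scalar_of_pow {n : ℕ} (z : F) (hzn : z ^ (n + 1) = 1)
    (hs : z ^ (∑ i ∈ Finset.range (n + 1), i) = 1) :
    IsComm (z • (1 : Matrix (Fin (n + 1)) (Fin (n + 1)) F)) := by
  let σ : Equiv.Perm (Fin (n + 1)) := Equiv.addRight 1
  let s : Fin (n + 1) → F := fun i => if i = 0 then ((Equiv.Perm.sign σ : ℤ) : F) else 1
  refine ⟨diagonal fun i => z ^ (i : ℕ), (diagonal s).submatrix id σ, ?_, ?_, ?_⟩
  · rw [det_scalarShift_diag, hs]
  · rw [det_permute', det_diagonal]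
    rw [Fin.prod_univ_succ]
    simp [s]
    rcases Int.units_eq_one_or (Equiv.Perm.sign σ) with h | h <;> simp [h]
  · ext i j
    simp only [Matrix.smul_mul, Matrix.one_mul, Matrix.smul_apply, mul_diagonal, diagonal_mul,
      submatrix_apply, id, smul_eq_mul]
    by_cases h : i = σ j
    · subst h
      rw [diagonal_apply_eq]
      have : z * z ^ (j : ℕ) = z ^ ((σ j : Fin (n + 1)) : ℕ) := by
        simp only [σ, Equiv.coe_addRight, Fin.val_add_one]
        split_ifs with hj
        · subst hj
          rw [Fin.val_last, pow_zero, ← pow_succ', hzn]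
        · rw [pow_succ']
      rw [← this]; ring
    · rw [diagonal_apply_ne _ h]; ring

/-- The even case with `z ^ m = -1`. -/
theorem isComm_scalar_even [Fintype F] (m : ℕ) (hm : 0 < m) (z : F) (hz : z ^ m = -1)
    (h2 : (2 : F) ≠ 0) :
    IsComm (z • (1 : Matrix (Fin 2 × Fin m) (Fin 2 × Fin m) F)) := by
  obtain ⟨n, rfl⟩ : ∃ n, m = n + 1 := ⟨m - 1, by omega⟩
  have hz0 : z ≠ 0 := by rintro rfl; simp at hz
  have hzz : z ^ (2 * (n + 1)) = 1 := by rw [mul_comm, pow_mul, hz]; simp
  obtain ⟨α, β, hαβ⟩ : ∃ α β : F, α ^ 2 - z * β ^ 2 = -1 := by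
    obtain ⟨a, b, hab⟩ := FiniteField.exists_root_sum_quadratic
      (f := Polynomial.X ^ 2 + Polynomial.C (1 : F)) (g := Polynomial.C (-z) * Polynomial.X ^ 2)
      (Polynomial.degree_X_pow_add_C (by norm_num) _)
      (Polynomial.degree_C_mul_X_pow 2 (neg_ne_zero.2 hz0)) (FiniteField.odd_card_of_char_ne_two
        (fun hc => h2 (by
          haveI : CharP F 2 := hc ▸ ringChar.charP F
          exact_mod_cast CharP.cast_eq_zero F 2)))
    refine ⟨a, b, ?_⟩
    simp at hab
    linear_combination hab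
  let M : Fin (n + 1) → Matrix (Fin 2) (Fin 2) F := fun i => !![0, z ^ (2 * (i : ℕ) + 1); 1, 0]
  let D : Fin (n + 1) → Matrix (Fin 2) (Fin 2) F := fun i =>
    if i = 0 then !![1, 0; 0, z⁻¹] * (α • 1 + β • M 0) else !![1, 0; 0, z⁻¹]
  let σ : Equiv.Perm (Fin (n + 1)) := Equiv.addRight 1
  let π : Equiv.Perm (Fin 2 × Fin (n + 1)) := Equiv.prodCongr (Equiv.refl _) σ
  have hDM : ∀ i, M (σ i) * D i = z • (D i * M i) := by
    intro i
    have hσ : z ^ (2 * ((σ i : Fin (n + 1)) : ℕ) + 1) = z ^ 2 * z ^ (2 * (i : ℕ) + 1) := by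
      simp only [σ, Equiv.coe_addRight, Fin.val_add_one]
      split_ifs with hj
      · subst hj
        rw [Fin.val_last, ← pow_add]
        calc z ^ (2 * 0 + 1) = z ^ 1 * z ^ (2 * (n + 1)) := by rw [hzz]; simp
          _ = z ^ (2 + (2 * n + 1)) := by rw [← pow_add]; congr 1; ring
      · rw [← pow_add]; congr 1; ring
    have key : M (σ i) * !![1, 0; 0, z⁻¹] = z • (!![1, 0; 0, z⁻¹] * M i) := by
      ext a b
      fin_cases a <;> fin_cases b <;> simp [M, Matrix.mul_apply, Fin.sum_univ_two, hσ, hz0]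
      field_simp
    by_cases hi : i = 0
    · subst hi
      have hcomm : (α • 1 + β • M 0) * M 0 = M 0 * (α • 1 + β • M 0) := by
        simp [Matrix.add_mul, Matrix.mul_add]
      simp only [D, if_true]
      rw [← Matrix.mul_assoc, key, Matrix.smul_mul, Matrix.mul_assoc, ← hcomm, ← Matrix.mul_assoc]
    · simp only [D, if_neg hi]
      exact key
  refine ⟨blockDiagonal M, (blockDiagonal D).submatrix (π.symm) id, ?_, ?_, ?_⟩
  · rw [det_blockDiagonal]
    simp only [M, det_fin_two_of, zero_mul, mul_one, zero_sub]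
    rw [show (fun i : Fin (n + 1) => -z ^ (2 * (i : ℕ) + 1)) =
      (fun i : Fin (n + 1) => -1 * z ^ (2 * (i : ℕ) + 1)) from funext fun i => (neg_one_mul _).symm,
      Finset.prod_mul_distrib, Finset.prod_const, Finset.card_univ, Fintype.card_fin,
      Finset.prod_pow_eq_pow_sum]
    have e : ∑ x : Fin (n + 1), (2 * (x : ℕ) + 1) = (n + 1) * (n + 1) := by
      rw [Fin.sum_univ_eq_sum_range (fun i => 2 * i + 1) (n + 1)]
      clear hm hz hzz M D σ π hDM
      induction n with
      | zero => simp
      | succ k ih => rw [Finset.sum_range_succ, ih]; ring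
    rw [e, pow_mul, hz, ← pow_add, ← two_mul, pow_mul]
    simp
  · rw [det_permute, det_blockDiagonal]
    have hsign : Equiv.Perm.sign π.symm = 1 := by
      rw [Equiv.Perm.sign_symm]
      change Equiv.Perm.sign (Equiv.prodCongr (Equiv.refl (Fin 2)) σ) = 1
      rw [show Equiv.prodCongr (Equiv.refl (Fin 2)) σ = Equiv.prodCongrRight (fun _ => σ) from
        Equiv.ext fun x => rfl, Equiv.Perm.sign_prodCongrRight]
      simp
    rw [hsign, Fin.prod_univ_succ]
    simp only [D, if_true, Fin.succ_ne_zero, if_false, det_mul, det_fin_two_of, mul_zero, sub_zero,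
      one_mul, Finset.prod_const, Finset.card_univ, Fintype.card_fin, Units.val_one, Int.cast_one]
    have e : (α • 1 + β • M 0).det = α ^ 2 - z * β ^ 2 := by
      simp [M, det_fin_two]; ring
    rw [e, hαβ, inv_pow]
    rw [pow_succ] at hz
    have hne : z ^ n ≠ 0 := pow_ne_zero _ hz0
    field_simp
    linear_combination -hz
  · rw [Matrix.smul_mul, Matrix.one_mul]
    have e1 : (blockDiagonal D).submatrix π.symm id * blockDiagonal M =
        (blockDiagonal fun i => D i * M i).submatrix π.symm id := by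
      rw [blockDiagonal_mul]
      exact (submatrix_mul (blockDiagonal D) (blockDiagonal M) π.symm id id
        Function.bijective_id).symm
    have e2 : blockDiagonal M * (blockDiagonal D).submatrix π.symm id =
        (blockDiagonal fun i => M (σ i) * D i).submatrix π.symm id := by
      have hMπ : blockDiagonal M = (blockDiagonal fun i => M (σ i)).submatrix π.symm π.symm := by
        ext ⟨a, i⟩ ⟨b, j⟩
        by_cases h : i = j
        · subst h; simp [π, blockDiagonal_apply, Equiv.prodCongr_symm]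
        · have h2 : σ.symm i ≠ σ.symm j := fun e => h (σ.symm.injective e)
          simp [π, blockDiagonal_apply, h, h2, Equiv.prodCongr_symm]
      rw [hMπ, submatrix_mul_equiv, blockDiagonal_mul]
    have hEq : (blockDiagonal fun i => M (σ i) * D i) = z • blockDiagonal fun i => D i * M i := by
      rw [← blockDiagonal_smul]
      exact congrArg blockDiagonal (funext hDM)
    rw [e1, e2, hEq]
    rfl

/-- Scalar matrices of determinant one. -/
theorem isComm_scalar [Fintype F] {N : ℕ} (z : F) (hz : z ^ N = 1) :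
    IsComm (z • (1 : Matrix (Fin N) (Fin N) F)) := by
  rcases Nat.eq_zero_or_pos N with rfl | hN
  · exact ⟨1, 1, det_one, det_one, by ext i; exact i.elim0⟩
  obtain ⟨n, rfl⟩ : ∃ n, N = n + 1 := ⟨N - 1, by omega⟩
  have hgauss : (∑ i ∈ Finset.range (n + 1), i) * 2 = (n + 1) * n := Finset.sum_range_id_mul_two _
  rcases Nat.even_or_odd (n + 1) with ⟨m, hm⟩ | ⟨m, hm⟩
  · have hs : ∑ i ∈ Finset.range (n + 1), i = m * n := by
      have : (∑ i ∈ Finset.range (n + 1), i) * 2 = (m * n) * 2 := by
        rw [hgauss, hm]; ring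
      omega
    have hzm : z ^ m * z ^ m = 1 := by rw [← pow_add, ← hm, hz]
    rcases mul_self_eq_one_iff.1 hzm with h | h
    · exact isComm_scalar_of_pow z hz (by rw [hs, pow_mul, h, one_pow])
    · by_cases h2 : (2 : F) = 0
      · refine isComm_scalar_of_pow z hz (by
          rw [hs, pow_mul, h, show (-1 : F) = 1 by linear_combination -h2, one_pow])
      · have := isComm_reindex ((finProdFinEquiv).trans (finCongr (by omega : 2 * m = n + 1)))
          (isComm_scalar_even m (by omega) z h h2)
        rw [reindex_apply] at this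
        convert this using 1
        rw [submatrix_smul]
        simp only [Pi.smul_apply, submatrix_one_equiv]
  · have hs : ∑ i ∈ Finset.range (n + 1), i = (2 * m + 1) * m := by
      have : (∑ i ∈ Finset.range (n + 1), i) * 2 = ((2 * m + 1) * m) * 2 := by
        rw [hgauss, hm, show n = 2 * m by omega]; ring
      omega
    exact isComm_scalar_of_pow z hz (by rw [hs, pow_mul, ← hm, hz, one_pow])

end Cfsg.Agent.SLComm
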