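import Cfsg.Agent.SLComm.Assemble
import Cfsg.Agent.SLComm.Count

/-!
The tail blocks of size two and three.
-/

set_option autoImplicit false

namespace Cfsg.Agent.SLComm

open Matrix Module

variable {F : Type*} [Field F]

theorem sim_map {K : Type*} [Field K] {ι : Type*} [Fintype ι] [DecidableEq ι] (σ : F →+* K)
    {A B : Matrix ι ι F} (h : Sim A B) : Sim (A.map σ) (B.map σ) := by
  obtain ⟨P, hP, h⟩ := h
  refine ⟨P.map σ, ?_, ?_⟩
  · rw [← RingHom.mapMatrix_apply, ← RingHom.map_det]; exact hP.map σ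
  · rw [← Matrix.map_mul, ← Matrix.map_mul, h]

theorem exists_noneigen {k : ℕ} (t : Matrix (Fin k) (Fin k) F) (hns : ∀ μ : F, t ≠ μ • 1) :
    ∃ v, LinearIndependent F ![v, t *ᵥ v] := by
  by_contra hc
  push_neg at hc
  have heig : ∀ v, ∃ μ : F, t *ᵥ v = μ • v := by
    intro v
    by_cases hv : v = 0
    · exact ⟨0, by simp [hv]⟩
    · have := hc v
      rw [linearIndependent_fin2] at this
      simp only [cons_val_one, cons_val_fin_one, cons_val_zero, not_and, not_forall, not_not] at this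
      by_cases htv : t *ᵥ v = 0
      · exact ⟨0, by simp [htv]⟩
      · obtain ⟨a, ha⟩ := this htv
        have ha0 : a ≠ 0 := by rintro rfl; simp at ha; exact hv ha.symm
        exact ⟨a⁻¹, by rw [eq_inv_smul_iff₀ ha0]; exact ha⟩
  choose μ hμ using heig
  have hcol : ∀ i j, t i j = μ (Pi.single j 1) * (1 : Matrix (Fin k) (Fin k) F) i j := by
    intro i j
    have := congrFun (hμ (Pi.single j 1)) i
    simpa [Matrix.one_apply, Pi.single_apply] using this
  rcases Nat.eq_zero_or_pos k with rfl | hk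
  · exact hns 0 (by ext i; exact i.elim0)
  let z : Fin k := ⟨0, hk⟩
  apply hns (μ (Pi.single z 1))
  ext i j
  rw [hcol i j, Matrix.smul_apply, smul_eq_mul]
  rcases eq_or_ne i j with rfl | hij
  · rcases eq_or_ne i z with rfl | hiz
    · rfl
    · congr 1
      have h := hμ (Pi.single i 1 + Pi.single z 1)
      rw [mulVec_add, hμ, hμ] at h
      have h1 := congrFun h i
      have h2 := congrFun h z
      simp [Pi.single_apply, hiz, hiz.symm] at h1 h2
      rw [h1, h2]
  · simp [hij]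

/-- The normal form of a tail of size two. -/
theorem tailOK_two (l : F) (hl : l ≠ 0) (hl2 : l ≠ l⁻¹) (t : Matrix (Fin 2) (Fin 2) F)
    (hdet : t.det = 1) (hns : ∀ μ : F, t ≠ μ • 1) : TailOK (diagonal ![l, l⁻¹]) t := by
  obtain ⟨v, hv⟩ := exists_noneigen t hns
  let P : Matrix (Fin 2) (Fin 2) F := of fun i j => ![v, t *ᵥ v - v] j i
  have hP : IsUnit P.det := by
    rw [← isUnit_iff_isUnit_det, ← linearIndependent_cols_iff_isUnit]
    show LinearIndependent F ![v, t *ᵥ v - v]
    rw [LinearIndependent.pair_iff] at hv ⊢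
    intro a b hab
    obtain ⟨h1, h2⟩ := hv (a - b) b (by rw [sub_smul]; rw [smul_sub] at hab;
                                        linear_combination (norm := abel) hab)
    exact ⟨by rw [h2, sub_zero] at h1; exact h1, h2⟩
  set M := P⁻¹ * t * P with hM
  have hsim : Sim t M := ⟨P, hP, by
    rw [hM, ← Matrix.mul_assoc, ← Matrix.mul_assoc, mul_nonsing_inv P hP, Matrix.one_mul]⟩
  have hc0 : ∀ i, M i 0 = 1 := by
    intro i
    have h : t *ᵥ P *ᵥ Pi.single 0 1 = P *ᵥ ![1, 1] := by
      rw [mulVec_single_one]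
      funext i
      fin_cases i <;> simp [P, mulVec, dotProduct, Fin.sum_univ_two, Matrix.col, vecHead, vecTail]
    have h2 : M *ᵥ Pi.single 0 1 = ![1, 1] := by
      rw [hM, ← mulVec_mulVec, ← mulVec_mulVec, h, mulVec_mulVec, nonsing_inv_mul P hP, one_mulVec]
    have h3 := congrFun h2 i
    rw [mulVec_single_one] at h3
    fin_cases i <;> simpa using h3
  have hMd : M 1 1 = 1 + M 0 1 := by
    have := det_eq_of_sim hsim
    rw [hdet, det_fin_two, hc0, hc0] at this
    linear_combination -this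
  refine tailOK_of_sim hsim ?_
  have hne : l - l⁻¹ ≠ 0 := sub_ne_zero.2 hl2
  have hne2 : l * l - 1 ≠ 0 := by
    intro h
    exact hl2 (eq_inv_of_mul_eq_one_left (sub_eq_zero.1 h))
  refine ⟨!![l, -(M 0 1) * l⁻¹; 0, l⁻¹], ⟨!![1, (M 0 1) / (l * l - 1); 0, 1], by simp, ?_⟩,
    ⟨!![1, 0; l * l / (l * l - 1), 1], by simp, ?_⟩⟩
  · ext i j
    fin_cases i <;> fin_cases j <;> simp [Matrix.mul_apply, Fin.sum_univ_two]
    field_simp
    ring_nf
    have hK : (-1 + l ^ 2) * (-1 + l ^ 2)⁻¹ = 1 :=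
      mul_inv_cancel₀ (by intro h; exact hne2 (by linear_combination h))
    linear_combination (M 0 1) * hK
  · ext i j
    fin_cases i <;> fin_cases j <;> simp [Matrix.mul_apply, Fin.sum_univ_two, hc0, hMd]
    all_goals field_simp
    all_goals ring_nf
    have hK : (-1 + l ^ 2) * (-1 + l ^ 2)⁻¹ = 1 :=
      mul_inv_cancel₀ (by intro h; exact hne2 (by linear_combination h))
    linear_combination -hK

theorem exists_centralizer_two (l : F) (m : ℕ) (t : F) :
    ∃ (a : F) (Z : Matrix (Fin 2) (Fin 2) F),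
      Z * diagonal ![l, l⁻¹] = diagonal ![l, l⁻¹] * Z ∧ a ^ m * Z.det = t :=
  ⟨1, diagonal ![t, 1], by rw [diagonal_mul_diagonal, diagonal_mul_diagonal]; congr 1; funext i;
                           exact mul_comm _ _, by simp [det_diagonal, Fin.prod_univ_two]⟩

/-- Companion of `X^3 - X - 1`. -/
def cubic (F : Type*) [Field F] : Matrix (Fin 3) (Fin 3) F := !![0, 0, 1; 1, 0, 1; 0, 1, 0]

theorem cubic_facts : (cubic F).det = 1 ∧ (cubic F - 1).det = 1 := by
  constructor <;> simp [cubic, det_fin_three, Matrix.one_apply]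

/-- Multiplication of small matrices, unfolded. -/
def mul3 (a b : Matrix (Fin 3) (Fin 3) (ZMod 3)) : Matrix (Fin 3) (Fin 3) (ZMod 3) :=
  of fun i j => a i 0 * b 0 j + a i 1 * b 1 j + a i 2 * b 2 j

/-- Determinant of a small matrix, unfolded. -/
def det3 (a : Matrix (Fin 3) (Fin 3) (ZMod 3)) : ZMod 3 :=
  a 0 0 * a 1 1 * a 2 2 - a 0 0 * a 1 2 * a 2 1 - a 0 1 * a 1 0 * a 2 2
    + a 0 1 * a 1 2 * a 2 0 + a 0 2 * a 1 0 * a 2 1 - a 0 2 * a 1 1 * a 2 0

/-- The companion, over `ZMod 3`. -/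
def cubic3 : Matrix (Fin 3) (Fin 3) (ZMod 3) :=
  of fun i j => if (i.val = j.val + 1) ∨ (j = 2 ∧ i.val ≤ 1) then 1 else 0

/-- The Krylov matrix of the first basis vector. -/
def krylov (a : Matrix (Fin 3) (Fin 3) (ZMod 3)) : Matrix (Fin 3) (Fin 3) (ZMod 3) :=
  of fun i j => if j = 0 then (if i = 0 then 1 else 0) else if j = 1 then a i 0 else mul3 a a i 0

/-- Similar to the companion, decidably. -/
def IsCubic (a : Matrix (Fin 3) (Fin 3) (ZMod 3)) : Prop :=
  det3 (krylov a) ≠ 0 ∧ mul3 a (krylov a) = mul3 (krylov a) cubic3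

instance (a : Matrix (Fin 3) (Fin 3) (ZMod 3)) : Decidable (IsCubic a) :=
  inferInstanceAs (Decidable (¬ det3 (krylov a) = 0 ∧
    mul3 a (krylov a) = mul3 (krylov a) cubic3))

/-- The witnesses. -/
def witnesses : List (Matrix (Fin 3) (Fin 3) (ZMod 3)) := [
  !![0, 2, 1; 1, 2, 0; 1, 2, 1],
  !![1, 2, 0; 1, 1, 2; 1, 1, 1],
  !![0, 2, 2; 1, 2, 0; 2, 1, 1],
  !![1, 1, 1; 1, 2, 2; 1, 2, 0],
  !![0, 2, 0; 0, 1, 1; 2, 0, 2],
  !![1, 0, 1; 0, 0, 1; 1, 2, 2],
  !![1, 0, 2; 1, 1, 0; 2, 2, 1],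
  !![2, 2, 1; 0, 0, 1; 1, 2, 1],
  !![1, 2, 0; 2, 0, 1; 1, 2, 2],
  !![1, 1, 0; 1, 2, 2; 0, 1, 0],
  !![0, 1, 0; 2, 0, 2; 2, 1, 0],
  !![0, 1, 1; 2, 2, 0; 1, 1, 1],
  !![2, 0, 2; 0, 0, 2; 1, 2, 1]]

/-- Normal forms of cyclic tails. -/
def formC (b c : ZMod 3) : Matrix (Fin 3) (Fin 3) (ZMod 3) :=
  of fun i j => if j = 0 then (if i = 1 then 1 else 0) else if j = 1 then (if i = 2 then 1 else 0)
    else if i = 0 then 1 else if i = 1 then b else c

/-- Normal forms of non-cyclic tails. -/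
def formT (al be x y z : ZMod 3) : Matrix (Fin 3) (Fin 3) (ZMod 3) :=
  of fun i j => if j = 0 then (if i = 1 then 1 else 0)
    else if j = 1 then (if i = 0 then al else if i = 1 then be else 0)
    else if i = 0 then x else if i = 1 then y else z

set_option maxRecDepth 10000 in
theorem witnesses_cubic : ∀ C ∈ witnesses, IsCubic C := by
  simp only [witnesses, List.forall_mem_cons, List.not_mem_nil, false_implies, implies_true,
    and_true]
  refine ⟨?_, ?_, ?_, ?_, ?_, ?_, ?_, ?_, ?_, ?_, ?_, ?_, ?_⟩ <;> decide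

set_option maxRecDepth 10000 in
theorem formC_ok : ∀ b c : ZMod 3, ∃ C ∈ witnesses, IsCubic (mul3 (formC b c) C) := by decide

set_option maxRecDepth 10000 in
set_option maxHeartbeats 1600000 in
theorem formT_ok : ∀ al be x y : ZMod 3, al ≠ 0 →
    ¬ (-al = 1 ∧ be - 1 = -al ∧ y = -x) →
    ∃ C ∈ witnesses, IsCubic (mul3 (formT al be x y (-al)) C) := by decide

theorem eq_neg_of_one_eq_neg_mul : ∀ x y : ZMod 3, 1 = -(x * y) → y = -x := by decide

theorem mul3_eq (a b : Matrix (Fin 3) (Fin 3) (ZMod 3)) : mul3 a b = a * b := by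
  ext i j
  simp [mul3, Matrix.mul_apply, Fin.sum_univ_three]

theorem sim_of_isCubic {a : Matrix (Fin 3) (Fin 3) (ZMod 3)} [_root_.Fact (Nat.Prime 3)]
    (h : IsCubic a) : Sim a (cubic (ZMod 3)) := by
  refine ⟨krylov a, ?_, ?_⟩
  · rw [isUnit_iff_ne_zero, det_fin_three]
    exact h.1
  · have e : cubic3 = cubic (ZMod 3) := by
      ext i j
      fin_cases i <;> fin_cases j <;> rfl
    rw [← e, ← mul3_eq, ← mul3_eq]
    exact h.2

/-- Tails of size three over three elements. -/
theorem tailOK_three_zmod [_root_.Fact (Nat.Prime 3)] (t : Matrix (Fin 3) (Fin 3) (ZMod 3))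
    (hdet : t.det = 1) (hns : ∀ μ : ZMod 3, t ≠ μ • 1)
    (hrk : 2 ≤ finrank (ZMod 3) (LinearMap.range (t - 1).mulVecLin)) :
    TailOK (cubic (ZMod 3)) t := by
  obtain ⟨v, hv⟩ := exists_noneigen t hns
  set w := t *ᵥ v with hw
  have close : ∀ (M : Matrix (Fin 3) (Fin 3) (ZMod 3)), Sim t M →
      (∃ C ∈ witnesses, IsCubic (mul3 M C)) → TailOK (cubic (ZMod 3)) t := by
    rintro M hM ⟨C, hC, h⟩
    refine tailOK_of_sim hM ⟨C, sim_of_isCubic (witnesses_cubic C hC), ?_⟩
    rw [← mul3_eq]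
    exact sim_of_isCubic h
  obtain ⟨u, hu⟩ : ∃ u, LinearIndependent (ZMod 3) ![v, w, u] := by
    obtain ⟨u, hu⟩ := SetLike.exists_not_mem_of_ne_top
      (Submodule.span (ZMod 3) (Set.range ![v, w])) (fun h => by
        have h2 := finrank_span_eq_card hv
        rw [h, finrank_top, finrank_fintype_fun_eq_card] at h2
        simp at h2)
    refine ⟨u, ?_⟩
    have e' : ![v, w, u] = Fin.snoc ![v, w] u := by funext i; fin_cases i <;> rfl
    rw [e', linearIndependent_finSnoc]
    exact ⟨hv, hu⟩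
  by_cases hcyc : LinearIndependent (ZMod 3) ![v, w, t *ᵥ w]
  · let P : Matrix (Fin 3) (Fin 3) (ZMod 3) := of fun i j => ![v, w, t *ᵥ w] j i
    have hP : IsUnit P.det := by
      rw [← isUnit_iff_isUnit_det, ← linearIndependent_cols_iff_isUnit]; exact hcyc
    set M := P⁻¹ * t * P with hM
    have hsim : Sim t M := ⟨P, hP, by
      rw [hM, ← Matrix.mul_assoc, ← Matrix.mul_assoc, mul_nonsing_inv P hP, Matrix.one_mul]⟩
    have hcol : ∀ (j : Fin 3) (z : Fin 3 → ZMod 3), t *ᵥ (![v, w, t *ᵥ w] j) = P *ᵥ z →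
        ∀ i, M i j = z i := by
      intro j z hz i
      have h2 : M *ᵥ Pi.single j 1 = z := by
        rw [hM, ← mulVec_mulVec, ← mulVec_mulVec, mulVec_single_one]
        have : P.col j = ![v, w, t *ᵥ w] j := rfl
        rw [this, hz, mulVec_mulVec, nonsing_inv_mul P hP, one_mulVec]
      have h3 := congrFun h2 i
      rwa [mulVec_single_one] at h3
    have c0 := hcol 0 ![0, 1, 0] (by funext i; simp [P, mulVec, dotProduct, Fin.sum_univ_three, hw])
    have c1 := hcol 1 ![0, 0, 1] (by funext i; simp [P, mulVec, dotProduct, Fin.sum_univ_three])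
    have hd := det_eq_of_sim hsim
    rw [hdet, det_fin_three, c0, c0, c0, c1, c1, c1] at hd
    simp at hd
    have hM' : M = formC (M 1 2) (M 2 2) := by
      ext i j
      fin_cases i <;> fin_cases j <;> simp [formC, c0, c1, ← hd]
    exact close _ hsim (hM' ▸ formC_ok (M 1 2) (M 2 2))
  · let P : Matrix (Fin 3) (Fin 3) (ZMod 3) := of fun i j => ![v, w, u] j i
    have hP : IsUnit P.det := by
      rw [← isUnit_iff_isUnit_det, ← linearIndependent_cols_iff_isUnit]; exact hu
    set M := P⁻¹ * t * P with hM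
    have hsim : Sim t M := ⟨P, hP, by
      rw [hM, ← Matrix.mul_assoc, ← Matrix.mul_assoc, mul_nonsing_inv P hP, Matrix.one_mul]⟩
    have hcol : ∀ (j : Fin 3) (z : Fin 3 → ZMod 3), t *ᵥ (![v, w, u] j) = P *ᵥ z →
        ∀ i, M i j = z i := by
      intro j z hz i
      have h2 : M *ᵥ Pi.single j 1 = z := by
        rw [hM, ← mulVec_mulVec, ← mulVec_mulVec, mulVec_single_one]
        have : P.col j = ![v, w, u] j := rfl
        rw [this, hz, mulVec_mulVec, nonsing_inv_mul P hP, one_mulVec]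
      have h3 := congrFun h2 i
      rwa [mulVec_single_one] at h3
    have c0 := hcol 0 ![0, 1, 0] (by funext i; simp [P, mulVec, dotProduct, Fin.sum_univ_three, hw])
    obtain ⟨a, b, hab⟩ : ∃ a b : ZMod 3, a • v + b • w = t *ᵥ w := by
      have h : t *ᵥ w ∈ Submodule.span (ZMod 3) (Set.range ![v, w]) := by
        by_contra hc
        apply hcyc
        have e' : ![v, w, t *ᵥ w] = Fin.snoc ![v, w] (t *ᵥ w) := by
          funext i; fin_cases i <;> rfl
        rw [e', linearIndependent_finSnoc]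
        exact ⟨hv, hc⟩
      rw [Matrix.range_cons, Matrix.range_cons, Matrix.range_empty, Set.union_empty,
        Set.singleton_union, Submodule.mem_span_pair] at h
      exact h
    have c1 := hcol 1 ![a, b, 0] (by
      rw [show t *ᵥ ![v, w, u] 1 = t *ᵥ w from rfl, ← hab]
      funext i; simp [P, mulVec, dotProduct, Fin.sum_univ_three, mul_comm])
    have hd := det_eq_of_sim hsim
    rw [hdet, det_fin_three, c0, c0, c0, c1, c1, c1] at hd
    simp at hd
    have ha : a ≠ 0 := by rintro rfl; simp at hd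
    have hz : M 2 2 = -a := by
      exact eq_neg_of_one_eq_neg_mul a (M 2 2) hd
    have hM' : M = formT a b (M 0 2) (M 1 2) (-a) := by
      ext i j
      fin_cases i <;> fin_cases j <;> simp [formT, c0, c1, hz]
    refine close _ hsim (hM' ▸ formT_ok a b (M 0 2) (M 1 2) ha ?_)
    rintro ⟨h1, h2, h3⟩
    obtain rfl : a = -1 := by rw [← h1, neg_neg]
    obtain rfl : b = 2 := by rw [← sub_add_cancel b 1, h2]; norm_num
    -- then the image of t - 1 is a line
    have hMrk : finrank (ZMod 3) (LinearMap.range (M - 1).mulVecLin) ≤ 1 := by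
      have hle : LinearMap.range (M - 1).mulVecLin ≤
          Submodule.span (ZMod 3) {(![-1, 1, 0] : Fin 3 → ZMod 3)} := by
        rintro _ ⟨z, rfl⟩
        refine Submodule.mem_span_singleton.2 ⟨z 0 + z 1 + (-(M 0 2)) * z 2, ?_⟩
        funext i
        fin_cases i <;> simp [mulVec, dotProduct, Fin.sum_univ_three, c0, c1, Matrix.one_apply,
          hz, h3] <;> ring_nf
      exact (Submodule.finrank_mono hle).trans ((finrank_span_le_card _).trans (by simp))
    have : finrank (ZMod 3) (LinearMap.range (t - 1).mulVecLin) =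
        finrank (ZMod 3) (LinearMap.range (M - 1).mulVecLin) := by
      change (t - 1).rank = (M - 1).rank
      have e2 : M - 1 = P⁻¹ * (t - 1) * P := by
        rw [Matrix.mul_sub, Matrix.mul_one, Matrix.sub_mul, nonsing_inv_mul P hP, hM]
      rw [e2, rank_mul_eq_left_of_isUnit_det P _ hP,
        rank_mul_eq_right_of_isUnit_det P⁻¹ _ (isUnit_nonsing_inv_det P hP)]
    omega

/-- Tails of size three over a field with three elements. -/
theorem tailOK_three [Fintype F] (h3 : Fintype.card F = 3) (t : Matrix (Fin 3) (Fin 3) F)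
    (hdet : t.det = 1) (hns : ∀ μ : F, t ≠ μ • 1)
    (hrk : 2 ≤ finrank F (LinearMap.range (t - 1).mulVecLin)) : TailOK (cubic F) t := by
  haveI : _root_.Fact (Nat.Prime 3) := ⟨Nat.prime_three⟩
  let σ : ZMod 3 ≃+* F := ZMod.ringEquivOfPrime F Nat.prime_three h3
  set s := t.map σ.symm with hs
  have hts : s.map σ = t := by ext i j; simp [hs]
  have h1 : s.det = 1 := by
    rw [hs]
    have := (RingHom.map_det σ.symm.toRingHom t).symm
    rw [hdet, map_one] at this
    exact this
  have h2 : ∀ μ : ZMod 3, s ≠ μ • 1 := by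
    intro μ h
    apply hns (σ μ)
    rw [← hts, h]
    ext i j
    rcases eq_or_ne i j with rfl | hij <;> simp [*]
  have h4 : 2 ≤ finrank (ZMod 3) (LinearMap.range (s - 1).mulVecLin) := by
    by_contra hlt
    obtain ⟨u, hu⟩ : ∃ u, LinearMap.range (s - 1).mulVecLin ≤ Submodule.span (ZMod 3) {u} := by
      obtain ⟨u, hu⟩ := finrank_le_one_iff.1
        (show finrank (ZMod 3) (LinearMap.range (s - 1).mulVecLin) ≤ 1 by omega)
      refine ⟨u, fun x hx => ?_⟩
      obtain ⟨a, ha⟩ := hu ⟨x, hx⟩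
      exact Submodule.mem_span_singleton.2 ⟨a, congrArg Subtype.val ha⟩
    have hle : LinearMap.range (t - 1).mulVecLin ≤ Submodule.span F {(σ : ZMod 3 → F) ∘ u} := by
      rintro _ ⟨z, rfl⟩
      obtain ⟨a, ha⟩ := Submodule.mem_span_singleton.1
        (hu ⟨(σ.symm : F → ZMod 3) ∘ z, rfl⟩)
      refine Submodule.mem_span_singleton.2 ⟨σ a, funext fun i => ?_⟩
      have := congrArg σ (congrFun ha i)
      simpa [mulVec, dotProduct, hs, map_sum, Matrix.one_apply, apply_ite] using this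
    have h9 := (Submodule.finrank_mono hle).trans (finrank_span_le_card (R := F) _)
    simp at h9
    omega
  obtain ⟨C, hC, hC'⟩ := tailOK_three_zmod s h1 h2 h4
  have e : (cubic (ZMod 3)).map σ = cubic F := by
    ext i j
    fin_cases i <;> fin_cases j <;> simp [cubic]
  refine ⟨C.map σ, e ▸ sim_map σ.toRingHom hC, ?_⟩
  rw [← hts, ← e]
  have := sim_map σ.toRingHom hC'
  rw [Matrix.map_mul] at this
  exact this

theorem exists_centralizer_three [Fintype F] (h3 : Fintype.card F = 3) (m : ℕ) (t : F)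
    (ht : t ≠ 0) : ∃ (a : F) (Z : Matrix (Fin 3) (Fin 3) F),
      Z * cubic F = cubic F * Z ∧ a ^ m * Z.det = t := by
  refine ⟨1, t • 1, by simp, ?_⟩
  have h2 : t ^ 2 = 1 := by
    have := FiniteField.pow_card_sub_one_eq_one t ht
    rwa [h3] at this
  rw [det_smul, det_one, Fintype.card_fin, one_pow, one_mul, mul_one, pow_succ, h2, one_mul]

end Cfsg.Agent.SLComm
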