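import Cfsg.Agent.SLComm.Band
import Cfsg.Agent.SLComm.Tail
import Cfsg.Agent.SLComm.Scalar

/-!
Commutators in `SL(n,q)` for `q ≥ 3`.
-/

set_option autoImplicit false

namespace Cfsg.Agent.SLComm

open Matrix Module

variable {F : Type*} [Field F] [Fintype F]

theorem isComm_rank_one {n : ℕ} (hn : 3 ≤ n) (g : Matrix (Fin n) (Fin n) F) (hdet : g.det = 1)
    (hrk : finrank F (img (g - 1)) ≤ 1) : IsComm g := by
  obtain ⟨⟨u, _⟩, hu⟩ := finrank_le_one_iff.1 hrk
  choose ψ hψ using fun j => hu ⟨(g - 1) *ᵥ Pi.single j 1, ⟨_, rfl⟩⟩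
  have hg : g = 1 + vecMulVec u ψ := by
    ext i j
    have := congrArg (fun x => (Subtype.val x) i) (hψ j)
    simp [Matrix.one_apply] at this ⊢
    rw [vecMulVec_apply, mul_comm, this]
    ring
  by_cases hu0 : u = 0
  · rw [hg, hu0, zero_vecMulVec, add_zero]; exact isComm_one
  have hψu : ψ ⬝ᵥ u = 0 := by
    rw [hg, vecMulVec_eq Unit, det_one_add_replicateCol_mul_replicateRow] at hdet
    simpa using hdet
  obtain ⟨y, hy, hyu⟩ : ∃ y, ψ ⬝ᵥ y = 0 ∧ y ∉ Submodule.span F {u} := by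
    by_contra hc
    push_neg at hc
    let f := (dotProductBilin F F) ψ
    have hle : LinearMap.ker f ≤ Submodule.span F {u} := fun y hy => hc y hy
    have h1 := f.finrank_range_add_finrank_ker
    rw [finrank_fintype_fun_eq_card, Fintype.card_fin] at h1
    have h2 := (Submodule.finrank_mono hle).trans (finrank_span_le_card (R := F) {u})
    have h3 := Submodule.finrank_le (LinearMap.range f)
    simp at h2 h3
    omega
  obtain ⟨i, hi⟩ := Function.ne_iff.1 hu0
  obtain ⟨j, hj⟩ : ∃ j, y j - y i / u i * u j ≠ 0 := by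
    by_contra hc
    push_neg at hc
    exact hyu (Submodule.mem_span_singleton.2
      ⟨y i / u i, funext fun j => (sub_eq_zero.1 (hc j)).symm⟩)
  rw [hg]
  refine isComm_transvection u ψ y ((y j - y i / u i * u j)⁻¹ •
    (Pi.single j 1 - (u j / u i) • Pi.single i 1)) ?_ hy ?_ hψu
  · rw [smul_dotProduct, sub_dotProduct, smul_dotProduct, single_dotProduct, single_dotProduct]
    simp only [one_mul, smul_eq_mul, Pi.zero_apply] at hi ⊢
    rw [div_mul_cancel₀ _ hi]
    simp
  · rw [smul_dotProduct, sub_dotProduct, smul_dotProduct, single_dotProduct, single_dotProduct]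
    simp only [one_mul, smul_eq_mul]
    rw [show u j / u i * y i = y i / u i * u j by ring]
    exact inv_mul_cancel₀ hj

theorem isComm_of_band {m k : ℕ}
    (hk : (k = 2 ∧ 4 ≤ Fintype.card F) ∨ (k = 3 ∧ Fintype.card F = 3))
    (g : Matrix (Fin m ⊕ Fin k) (Fin m ⊕ Fin k) F) (hdet : g.det = 1)
    (hns : ∀ μ : F, g ≠ μ • 1) (hrk : m ≠ 0 ∨ k ≠ 2 → 2 ≤ finrank F (img (g - 1))) :
    IsComm g := by
  have hk' : (k = 2 ∧ 4 ≤ Fintype.card F) ∨ (k = 3 ∧ 3 ≤ Fintype.card F) := by omega
  have hne : Nonempty (Fin m ⊕ Fin k) := ⟨Sum.inr ⟨0, by omega⟩⟩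
  obtain ⟨z⟩ := hne
  obtain ⟨O⟩ := exists_bandOut k hk' m g hdet hns hrk (Pi.single z 1) (Pi.single z 1)
    (fun _ => ⟨by simp, by simp⟩)
  rcases hk with ⟨rfl, hq⟩ | ⟨rfl, hq⟩
  · classical
    obtain ⟨l, hl⟩ : ∃ l : F, l ∉ ({0, 1, -1} : Finset F) := by
      by_contra hc
      push_neg at hc
      have h1 : (Finset.univ : Finset F).card ≤ ({0, 1, -1} : Finset F).card :=
        Finset.card_le_card fun x _ => hc x
      have h2 := Finset.card_le_three (a := (0 : F)) (b := 1) (c := -1)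
      rw [Finset.card_univ] at h1
      omega
    simp only [Finset.mem_insert, Finset.mem_singleton, not_or] at hl
    obtain ⟨hl0, hl1, hlm⟩ := hl
    have hl2 : l ≠ l⁻¹ := by
      intro h
      have : l * l = 1 := by
        nth_rewrite 2 [h]
        exact mul_inv_cancel₀ hl0
      rcases mul_self_eq_one_iff.1 this with h | h
      · exact hl1 h
      · exact hlm h
    refine assemble O.fact (diagonal ![l, l⁻¹]) ?_ ?_ (fun t _ => exists_centralizer_two l m t)
      (tailOK_two l hl0 hl2 _ O.det_tail O.ns_tail)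
    · simp [det_diagonal, Fin.prod_univ_two, hl0]
    · simp [det_fin_two, sub_eq_zero, hl1]
  · refine assemble O.fact (cubic F) cubic_facts.1 (by rw [cubic_facts.2]; exact one_ne_zero)
      (fun t ht => exists_centralizer_three hq m t ht)
      (tailOK_three hq _ O.det_tail O.ns_tail (O.rk_tail (by omega)))

theorem isComm_of_three_le {n : ℕ} (hn : 2 ≤ n) (hq : 3 ≤ Fintype.card F)
    (hex : n = 2 → 4 ≤ Fintype.card F) (g : Matrix (Fin n) (Fin n) F) (hdet : g.det = 1) :
    IsComm g := by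
  by_cases hsc : ∃ μ : F, g = μ • 1
  · obtain ⟨μ, rfl⟩ := hsc
    rw [det_smul, det_one, Fintype.card_fin, mul_one] at hdet
    exact isComm_scalar μ hdet
  push_neg at hsc
  by_cases h1 : 3 ≤ n ∧ finrank F (img (g - 1)) ≤ 1
  · exact isComm_rank_one h1.1 g hdet h1.2
  obtain ⟨k, hk, hkn⟩ : ∃ k, ((k = 2 ∧ 4 ≤ Fintype.card F) ∨ (k = 3 ∧ Fintype.card F = 3)) ∧
      k ≤ n := by
    by_cases h4 : 4 ≤ Fintype.card F
    · exact ⟨2, Or.inl ⟨rfl, h4⟩, hn⟩
    · exact ⟨3, Or.inr ⟨rfl, by omega⟩, by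
        by_contra hlt; exact h4 (hex (by omega))⟩
  let e : Fin n ≃ Fin (n - k) ⊕ Fin k := (finCongr (by omega)).trans finSumFinEquiv.symm
  have hg : reindex e.symm e.symm (reindex e e g) = g := by
    ext i j; simp
  rw [← hg]
  refine isComm_reindex e.symm (isComm_of_band hk _ (by rw [det_reindex_self, hdet]) ?_ ?_)
  · intro μ h
    apply hsc μ
    rw [← hg, h, reindex_apply, submatrix_smul]
    simp only [Pi.smul_apply, submatrix_one_equiv]
  · intro hor
    have h3 : 3 ≤ n := by omega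
    have e2 : reindex e e g - 1 = (g - 1).submatrix e.symm e.symm := by
      ext i j
      simp [Matrix.one_apply]
    change 2 ≤ (reindex e e g - 1).rank
    rw [e2, rank_submatrix]
    have h4 : ¬ finrank F (img (g - 1)) ≤ 1 := fun h => h1 ⟨h3, h⟩
    change 2 ≤ finrank F (img (g - 1))
    omega

end Cfsg.Agent.SLComm
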