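import Cfsg.Agent.SLComm.Frame
import Cfsg.Agent.SLComm.Count

/-!
One step of the triangular factorisation with non-vanishing adjacent entries.
-/

set_option autoImplicit false

namespace Cfsg.Agent.SLComm

open Matrix Module

variable {F : Type*} [Field F] [Fintype F] {ι : Type*} [Fintype ι] [DecidableEq ι]

/-- The image of a matrix. -/
abbrev img (N : Matrix ι ι F) : Submodule F (ι → F) := LinearMap.range N.mulVecLin

theorem mem_img {N : Matrix ι ι F} {x : ι → F} : x ∈ img N ↔ ∃ y, N *ᵥ y = x := Iff.rfl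

theorem sub_one_mulVec (g : Matrix ι ι F) (x : ι → F) : (g - 1) *ᵥ x = g *ᵥ x - x := by
  rw [sub_mulVec, one_mulVec]

theorem exists_vector (g : Matrix ι ι F) (hq : 3 ≤ Fintype.card F) (hg : g.det ≠ 0)
    (hrk : 2 ≤ finrank F (img (g - 1))) (hns : ∀ μ : F, g ≠ μ • 1)
    {c r : ι → F} (hr : r ≠ 0) :
    ∃ v, r ⬝ᵥ v ≠ 0 ∧ (g - 1) *ᵥ v ∉ Submodule.span F {c} ∧
      LinearIndependent F ![v, (g - 1) *ᵥ v] ∧ (img (g - 1) = ⊤ ∨ v ∉ img (g - 1)) := by
  classical
  set N := g - 1 with hN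
  let A : Submodule F (ι → F) :=
    LinearMap.ker ((dotProductBilin F F) r)
  have hA : ∀ x, x ∈ A ↔ r ⬝ᵥ x = 0 := fun x => by simp [A]
  have hAtop : A ≠ ⊤ := by
    intro h
    obtain ⟨i, hi⟩ := Function.ne_iff.1 hr
    have h2 : Pi.single i (1 : F) ∈ A := by rw [h]; trivial
    rw [hA] at h2
    simp at h2
    exact hi h2
  let B : Submodule F (ι → F) := (Submodule.span F {c}).comap N.mulVecLin
  have hB : ∀ x, x ∈ B ↔ N *ᵥ x ∈ Submodule.span F {c} := fun x => Iff.rfl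
  have hBtop : B ≠ ⊤ := by
    intro h
    have hle : img N ≤ Submodule.span F {c} := by
      rintro x ⟨y, rfl⟩
      exact (hB y).1 (h ▸ Submodule.mem_top)
    have := (Submodule.finrank_mono hle).trans (finrank_span_le_card (R := F) {c})
    simp at this
    omega
  have hindep : ∀ x, x ∉ B → (∀ μ : F, N *ᵥ x ≠ μ • x) → LinearIndependent F ![x, N *ᵥ x] := by
    intro x hxB hx
    have hx0 : x ≠ 0 := fun e => hxB (by rw [e]; exact B.zero_mem)
    rw [linearIndependent_fin2]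
    refine ⟨fun e => hxB ((hB x).2 ?_), fun a ha => ?_⟩
    · simp only [Matrix.cons_val_one, Matrix.cons_val_fin_one] at e
      rw [e]; exact Submodule.zero_mem _
    · simp only [Matrix.cons_val_one, Matrix.cons_val_fin_one, Matrix.cons_val_zero] at ha
      have ha0 : a ≠ 0 := by rintro rfl; simp at ha; exact hx0 ha.symm
      exact hx a⁻¹ (by rw [eq_inv_smul_iff₀ ha0]; exact ha)
  by_cases hR : img N = ⊤
  swap
  · obtain ⟨v, h1, h2, h3⟩ := exists_not_mem_three hq hAtop hBtop hR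
    refine ⟨v, fun e => h1 ((hA v).2 e), fun e => h2 ((hB v).2 e), hindep v h2 ?_, Or.inr h3⟩
    intro μ hμ
    by_cases hμ0 : μ = 0
    · apply h2
      rw [hB, hμ, hμ0, zero_smul]
      exact Submodule.zero_mem _
    · apply h3
      exact ⟨μ⁻¹ • v, by rw [mulVecLin_apply, mulVec_smul, hμ, smul_smul, inv_mul_cancel₀ hμ0,
        one_smul]⟩
  have hinj : ∀ x, N *ᵥ x = 0 → x = 0 := by
    have hs : Function.Surjective N.mulVecLin := LinearMap.range_eq_top.1 hR
    have hi := LinearMap.injective_iff_surjective.2 hs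
    intro x hx
    exact hi (by rw [mulVecLin_apply, hx, map_zero])
  have fin : ∀ v, v ∉ A → v ∉ B → (∀ μ : F, N *ᵥ v ≠ μ • v) →
      ∃ v, r ⬝ᵥ v ≠ 0 ∧ N *ᵥ v ∉ Submodule.span F {c} ∧
        LinearIndependent F ![v, N *ᵥ v] ∧ (img N = ⊤ ∨ v ∉ img N) := fun v h1 h2 h3 =>
    ⟨v, fun e => h1 ((hA v).2 e), fun e => h2 ((hB v).2 e), hindep v h2 h3, Or.inl hR⟩
  have hbot : (⊥ : Submodule F (ι → F)) ≠ ⊤ := fun h => hAtop (top_le_iff.1 (h ▸ bot_le))
  obtain ⟨v0, h1, h2, h3⟩ := exists_not_mem_three hq hAtop hBtop hbot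
  by_cases hne : ∀ μ : F, N *ᵥ v0 ≠ μ • v0
  · exact fin v0 h1 h2 hne
  push_neg at hne
  obtain ⟨μ, hμ⟩ := hne
  let C : Submodule F (ι → F) := LinearMap.ker (N.mulVecLin - μ • LinearMap.id)
  have hC : ∀ x, x ∈ C ↔ N *ᵥ x = μ • x := fun x => by
    simp [C, sub_eq_zero]
  have hCtop : C ≠ ⊤ := by
    intro h
    apply hns (μ + 1)
    ext i j
    have h4 := congrFun ((hC (Pi.single j 1)).1 (h ▸ Submodule.mem_top)) i
    simp [N, Matrix.one_apply, Pi.single_apply] at h4 ⊢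
    rcases eq_or_ne i j with rfl | hij
    · simp at h4 ⊢
      rw [← h4]; ring
    · simp [hij, hij.symm] at h4 ⊢
      exact h4
  obtain ⟨v1, g1, g2, g3⟩ := exists_not_mem_three hq hAtop hBtop hCtop
  by_cases hne1 : ∀ ν : F, N *ᵥ v1 ≠ ν • v1
  · exact fin v1 g1 g2 hne1
  push_neg at hne1
  obtain ⟨ν, hν⟩ := hne1
  have hv00 : v0 ≠ 0 := fun e => h3 (by rw [e]; exact Submodule.zero_mem _)
  have hv10 : v1 ≠ 0 := fun e => g1 (by rw [e]; exact A.zero_mem)
  have hμν : μ ≠ ν := fun e => g3 ((hC v1).2 (e ▸ hν))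
  have hμ0 : μ ≠ 0 := fun e => hv00 (hinj v0 (by rw [hμ, e, zero_smul]))
  have hν0 : ν ≠ 0 := fun e => hv10 (hinj v1 (by rw [hν, e, zero_smul]))
  have hminus : ∀ (x : ι → F) (ρ : F), x ≠ 0 → N *ᵥ x = ρ • x → ρ ≠ -1 := by
    intro x ρ hx hρ e
    apply hx
    have h4 : g *ᵥ x = 0 := by
      have : N *ᵥ x = g *ᵥ x - x := sub_one_mulVec g x
      rw [hρ, e] at this
      rw [neg_smul, one_smul] at this
      linear_combination (norm := abel) -this
    have h5 := congrArg (fun z => g⁻¹ *ᵥ z) h4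
    simpa [mulVec_mulVec, nonsing_inv_mul g (isUnit_iff_ne_zero.2 hg)] using h5
  have h4card : 4 ≤ Fintype.card F := by
    have hs : ({0, -1, μ, ν} : Finset F).card = 4 := by
      have a1 := hminus v0 μ hv00 hμ
      have a2 := hminus v1 ν hv10 hν
      simp [Ne.symm hμ0, Ne.symm hν0, Ne.symm a1, Ne.symm a2, hμν]
    rw [← hs]
    exact Finset.card_le_univ _
  by_contra hcon
  have key : ∀ t : F, t ≠ 0 → v0 + t • v1 ∈ A ∨ v0 + t • v1 ∈ B := by
    intro t ht
    by_contra hh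
    push_neg at hh
    refine hcon (fin _ hh.1 hh.2 fun ρ hρ => ?_)
    rw [mulVec_add, mulVec_smul, hμ, hν, smul_add, smul_smul, smul_smul] at hρ
    have h5 : (μ - ρ) • v0 + (t * ν - ρ * t) • v1 = 0 := by
      rw [sub_smul, sub_smul]; linear_combination (norm := abel) hρ
    have h6 : μ = ρ := by
      by_contra h7
      apply g3
      rw [hC]
      have h8 : (t * ν - ρ * t) ≠ 0 := fun e => by
        rw [e, zero_smul, add_zero, smul_eq_zero] at h5
        exact h7 (sub_eq_zero.1 (h5.resolve_right hv00))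
      have h9 : v1 = (-(μ - ρ) / (t * ν - ρ * t)) • v0 := by
        rw [div_eq_inv_mul, mul_smul, eq_inv_smul_iff₀ h8, neg_smul]
        exact eq_neg_of_add_eq_zero_right h5
      rw [h9, mulVec_smul, hμ, smul_comm]
    subst h6
    rw [sub_self, zero_smul, zero_add, smul_eq_zero] at h5
    rcases h5 with h5 | h5
    · apply hμν
      have h7 : t * (ν - μ) = 0 := by rw [mul_sub]; linear_combination h5
      exact (sub_eq_zero.1 ((mul_eq_zero.1 h7).resolve_left ht)).symm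
    · exact hv10 h5
  have uniq : ∀ (S : Submodule F (ι → F)), v1 ∉ S → ∀ s t : F,
      v0 + s • v1 ∈ S → v0 + t • v1 ∈ S → s = t := by
    intro S hS s t a1 a2
    by_contra hne
    apply hS
    have a3 : (s - t) • v1 ∈ S := by simpa [sub_smul] using S.sub_mem a1 a2
    exact (S.smul_mem_iff (sub_ne_zero.2 hne)).1 a3
  have hc2 : Fintype.card {t : F // t ≠ 0} ≤ 2 := by
    rw [← Fintype.card_bool]
    apply Fintype.card_le_of_injective
      (fun t : {t : F // t ≠ 0} => decide (v0 + (t : F) • v1 ∈ A))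
    intro s t hst
    simp only [decide_eq_decide] at hst
    apply Subtype.ext
    by_cases h : v0 + (s : F) • v1 ∈ A
    · exact uniq A g1 _ _ h (hst.1 h)
    · exact uniq B g2 _ _ ((key s s.2).resolve_left h)
        ((key t t.2).resolve_left fun h' => h (hst.2 h'))
  rw [Fintype.card_subtype_compl, Fintype.card_subtype_eq] at hc2
  omega

section frame

variable {κ : Type*} [Fintype κ] [DecidableEq κ] {g : Matrix ι ι F} {e : Unit ⊕ κ ≃ ι}
  {v φ : ι → F} (D : Frame g e v φ)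

/-- `x ↦ vec 0 x`, linearly. -/
def Frame.emb : (κ → F) →ₗ[F] (ι → F) where
  toFun x := D.vec 0 x
  map_add' x y := by
    rw [Frame.vec, Frame.vec, Frame.vec, ← mulVec_add]
    congr 1; funext l; rcases l with ⟨⟩ | l <;> simp
  map_smul' a x := by
    simp only [Frame.vec, RingHom.id_apply, ← mulVec_smul]
    congr 1; funext l; rcases l with ⟨⟩ | l <;> simp

theorem Frame.emb_injective : Function.Injective D.emb := fun _ _ h => (D.vec_injective h).2

theorem Frame.g_v : g *ᵥ v = D.vec 1 D.cv := by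
  conv_lhs => rw [← D.vec_one_zero]
  rw [D.g_mulVec]; simp

theorem Frame.g_emb (x : κ → F) :
    g *ᵥ D.emb x = D.emb (D.g' *ᵥ x) + (D.rv ⬝ᵥ x) • g *ᵥ v := by
  change g *ᵥ D.vec 0 x = _
  rw [D.g_mulVec, D.g_v]
  change D.vec _ _ = D.vec 0 _ + _
  simp only [Frame.vec, ← mulVec_smul, ← mulVec_add]
  congr 1; funext l; rcases l with ⟨⟩ | l <;> simp

theorem Frame.exists_emb (w : ι → F) (h : φ ⬝ᵥ w = 0) : ∃ x, w = D.emb x := by
  obtain ⟨x, hx⟩ := D.exists_vec w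
  exact ⟨x, by rw [hx, h]; rfl⟩

theorem Frame.cv_ne (hd : (g - 1) *ᵥ v ≠ 0) : D.cv ≠ 0 := by
  intro h
  apply hd
  rw [sub_one_mulVec, D.g_v, h, D.vec_one_zero, sub_self]

theorem Frame.rv_ne (h : ∃ x ∈ img (g - 1), x ⬝ᵥ φ ≠ 0) : D.rv ≠ 0 := by
  intro hr
  obtain ⟨x, ⟨w, rfl⟩, hx⟩ := h
  apply hx
  obtain ⟨y, hy⟩ := D.exists_vec w
  rw [mulVecLin_apply, sub_one_mulVec, dotProduct_comm, dotProduct_sub, hy, D.g_mulVec,
    D.dot_vec, D.dot_vec, hr]
  simp

/-- `φ` for which the Schur complement is scalar. -/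
def Scal (g : Matrix ι ι F) (v φ : ι → F) : Prop :=
  ∃ μ : F, μ ≠ 0 ∧ ∀ w, w ⬝ᵥ φ = 0 → ∃ s : F, g *ᵥ w = μ • w + s • g *ᵥ v

theorem Frame.scal_of_smul (hκ : Nonempty κ) (hdet : g.det = 1) {μ : F}
    (h : D.g' = μ • 1) : Scal g v φ := by
  refine ⟨μ, fun e0 => ?_, fun w hw => ?_⟩
  · have := D.det_g'
    haveI hne := hκ
    rw [h, e0, zero_smul, det_zero, hdet] at this
    exact zero_ne_one this
  · obtain ⟨x, rfl⟩ := D.exists_emb w (by rw [dotProduct_comm]; exact hw)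
    exact ⟨D.rv ⬝ᵥ x, by rw [D.g_emb, h, smul_mulVec, one_mulVec, map_smul]⟩

theorem Frame.rank_g'_bounds (hd : (g - 1) *ᵥ v ⬝ᵥ φ = 0) (hv : v ⬝ᵥ φ = 1) :
    finrank F (img (D.g' - 1)) ≤ finrank F (img (g - 1)) ∧
    finrank F (img (g - 1)) ≤ finrank F (img (D.g' - 1)) + 2 ∧
    (g *ᵥ v ∉ img (g - 1) →
      finrank F (img (g - 1)) ≤ finrank F (img (D.g' - 1)) + 1 ∧
      ((∃ k, (g - 1) *ᵥ k = 0 ∧ k ⬝ᵥ φ ≠ 0) →
        finrank F (img (g - 1)) ≤ finrank F (img (D.g' - 1)))) := by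
  set N := g - 1 with hN
  set gv := g *ᵥ v with hgv
  set T := (img (D.g' - 1)).map D.emb with hT
  have hTd : finrank F T = finrank F (img (D.g' - 1)) :=
    ((img (D.g' - 1)).equivMapOfInjective D.emb D.emb_injective).finrank_eq.symm
  have hgvφ : φ ⬝ᵥ gv = 1 := by rw [hgv, D.g_v, D.dot_vec]
  have key : ∀ x, N *ᵥ D.emb x = D.emb ((D.g' - 1) *ᵥ x) + (D.rv ⬝ᵥ x) • gv := by
    intro x
    rw [hN, sub_one_mulVec, D.g_emb, sub_one_mulVec D.g', map_sub]
    abel
  -- the image of the hyperplane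
  let S : Submodule F (ι → F) := (LinearMap.range D.emb).map N.mulVecLin
  have hSle : S ≤ T ⊔ Submodule.span F {gv} := by
    rintro _ ⟨_, ⟨x, rfl⟩, rfl⟩
    rw [mulVecLin_apply, key]
    exact Submodule.add_mem_sup ⟨_, ⟨x, rfl⟩, rfl⟩
      (Submodule.smul_mem _ _ (Submodule.mem_span_singleton_self _))
  have hline : ∀ U : Submodule F (ι → F),
      finrank F ↥(U ⊔ Submodule.span F {gv}) ≤ finrank F U + 1 := by
    intro U
    have h1 := Submodule.finrank_sup_add_finrank_inf_eq U (Submodule.span F {gv})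
    have h2 := finrank_span_le_card (R := F) ({gv} : Set (ι → F))
    simp at h2
    omega
  have hstrict : ∀ U : Submodule F (ι → F), gv ∉ U →
      finrank F U + 1 ≤ finrank F ↥(U ⊔ Submodule.span F {gv}) := by
    intro U hU
    apply Submodule.finrank_lt_finrank_of_lt
    refine lt_of_le_of_ne le_sup_left fun h => hU ?_
    rw [h]
    exact Submodule.mem_sup_right (Submodule.mem_span_singleton_self _)
  have hSimg : S ≤ img N := by rintro _ ⟨y, -, rfl⟩; exact ⟨y, rfl⟩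
  have hdecomp : ∀ w, ∃ x, w = (w ⬝ᵥ φ) • v + D.emb x := by
    intro w
    obtain ⟨x, hx⟩ := D.exists_emb (w - (w ⬝ᵥ φ) • v) (by
      rw [dotProduct_comm, sub_dotProduct, smul_dotProduct, hv]; simp)
    exact ⟨x, by rw [← hx]; abel⟩
  have hS1 : img N ≤ S ⊔ Submodule.span F {N *ᵥ v} := by
    rintro _ ⟨w, rfl⟩
    obtain ⟨x, hx⟩ := hdecomp w
    rw [hx, map_add, map_smul, mulVecLin_apply, mulVecLin_apply, add_comm]
    exact Submodule.add_mem_sup ⟨_, ⟨x, rfl⟩, rfl⟩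
      (Submodule.smul_mem _ _ (Submodule.mem_span_singleton_self _))
  have hS1d : finrank F (img N) ≤ finrank F S + 1 := by
    refine (Submodule.finrank_mono hS1).trans ?_
    have h1 := Submodule.finrank_sup_add_finrank_inf_eq S (Submodule.span F {N *ᵥ v})
    have h2 := finrank_span_le_card (R := F) ({N *ᵥ v} : Set (ι → F))
    simp at h2
    omega
  refine ⟨?_, ?_, fun hgvR => ⟨?_, ?_⟩⟩
  · -- upper bound
    have hTle : T ≤ img N ⊔ Submodule.span F {gv} := by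
      rintro _ ⟨_, ⟨x, rfl⟩, rfl⟩
      rw [show D.emb ((D.g' - 1).mulVecLin x) = N *ᵥ D.emb x + (-(D.rv ⬝ᵥ x)) • gv by
        rw [key, mulVecLin_apply, neg_smul]; abel]
      exact Submodule.add_mem_sup ⟨_, rfl⟩
        (Submodule.smul_mem _ _ (Submodule.mem_span_singleton_self _))
    have hgvT : gv ∉ T := by
      rintro ⟨y, -, hy⟩
      have h3 := hgvφ
      rw [← hy] at h3
      change φ ⬝ᵥ D.vec 0 y = 1 at h3
      rw [D.dot_vec] at h3
      exact zero_ne_one h3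
    have h4 := hstrict T hgvT
    have h5 : finrank F ↥(T ⊔ Submodule.span F {gv}) ≤ finrank F (img N) + 1 :=
      (Submodule.finrank_mono (sup_le hTle le_sup_right)).trans (hline _)
    omega
  · have h3 := (Submodule.finrank_mono hSle).trans (hline T)
    omega
  · have h1 := hstrict S fun h => hgvR (hSimg h)
    have h3 : finrank F ↥(S ⊔ Submodule.span F {gv}) ≤ finrank F T + 1 :=
      (Submodule.finrank_mono (sup_le hSle le_sup_right)).trans (hline T)
    omega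
  · rintro ⟨k, hk, hkφ⟩
    have hdS : N *ᵥ v ∈ S := by
      obtain ⟨x, hx⟩ := hdecomp k
      refine ⟨-((k ⬝ᵥ φ)⁻¹ • D.emb x), ⟨-((k ⬝ᵥ φ)⁻¹ • x), by simp⟩, ?_⟩
      rw [hx, mulVec_add, mulVec_smul, add_eq_zero_iff_eq_neg] at hk
      rw [map_neg, map_smul, mulVecLin_apply]
      rw [show N *ᵥ D.emb x = -((k ⬝ᵥ φ) • (N *ᵥ v)) by rw [hk, neg_neg], smul_neg, neg_neg,
        smul_smul, inv_mul_cancel₀ hkφ, one_smul]
    have h6 : img N ≤ S := hS1.trans (sup_le le_rfl ((Submodule.span_singleton_le_iff_mem _ _).2 hdS))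
    have h1 := hstrict S fun h => hgvR (hSimg h)
    have h3 : finrank F ↥(S ⊔ Submodule.span F {gv}) ≤ finrank F T + 1 :=
      (Submodule.finrank_mono (sup_le hSle le_sup_right)).trans (hline T)
    have h7 := Submodule.finrank_mono h6
    omega

theorem finrank_img_smul_one {μ : F} (hμ : μ ≠ 1) :
    finrank F (img ((μ • 1 : Matrix κ κ F) - 1)) = Fintype.card κ := by
  have h : img ((μ • 1 : Matrix κ κ F) - 1) = ⊤ := by
    rw [eq_top_iff]
    intro x _
    refine ⟨(μ - 1)⁻¹ • x, ?_⟩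
    rw [mulVecLin_apply, sub_one_mulVec, smul_mulVec, one_mulVec, ← one_smul F ((μ - 1)⁻¹ • x),
      smul_smul, ← sub_smul]
    simp only [one_smul, mul_one, smul_smul]
    rw [mul_inv_cancel₀ (sub_ne_zero.2 hμ), one_smul]
  rw [h, finrank_top, finrank_fintype_fun_eq_card]

end frame

theorem scal_unique {g : Matrix ι ι F} {v φ φ' : ι → F}
    (hvd : LinearIndependent F ![v, (g - 1) *ᵥ v]) (hφ : φ ∈ adm v ((g - 1) *ᵥ v))
    (hφ' : φ' ∈ adm v ((g - 1) *ᵥ v)) (h : Scal g v φ) (h' : Scal g v φ') : φ = φ' := by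
  by_contra hne
  obtain ⟨μ, hμ0, hμ⟩ := h
  obtain ⟨μ', hμ'0, hμ'⟩ := h'
  set d := (g - 1) *ᵥ v with hd
  have hgv : g *ᵥ v = v + d := by rw [hd, sub_one_mulVec]; abel
  have hli : ∀ a b : F, a • v + b • d = 0 → a = 0 ∧ b = 0 := fun a b h =>
    LinearIndependent.pair_iff.1 hvd a b h
  obtain ⟨s, hs⟩ := hμ d hφ.2
  obtain ⟨s', hs'⟩ := hμ' d hφ'.2
  have h1 : (s - s') • v + (μ - μ' + (s - s')) • d = 0 := by
    have := hs.symm.trans hs'
    rw [hgv, smul_add, smul_add] at this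
    simp only [sub_smul, add_smul]
    linear_combination (norm := abel) this
  obtain ⟨h2, h3⟩ := hli _ _ h1
  have hμμ : μ' = μ := by rw [h2, add_zero] at h3; exact (sub_eq_zero.1 h3).symm
  subst hμμ
  obtain ⟨w, hw, hw'⟩ : ∃ w, w ⬝ᵥ φ' = 0 ∧ w ⬝ᵥ φ ≠ 0 := by
    by_contra hc
    push_neg at hc
    apply hne
    have hall : ∀ w, w ⬝ᵥ φ = w ⬝ᵥ φ' := by
      intro w
      have h5 := hc (w - (w ⬝ᵥ φ') • v) (by
        rw [sub_dotProduct, smul_dotProduct, hφ'.1]; simp)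
      rw [sub_dotProduct, smul_dotProduct, hφ.1, sub_eq_zero] at h5
      simpa using h5
    funext i
    simpa using hall (Pi.single i 1)
  obtain ⟨a, ha⟩ := hμ' w hw
  obtain ⟨b, hb⟩ := hμ (v - (w ⬝ᵥ φ)⁻¹ • w) (by
    rw [sub_dotProduct, smul_dotProduct, hφ.1, smul_eq_mul, inv_mul_cancel₀ hw', sub_self])
  rw [mulVec_sub, mulVec_smul, ha] at hb
  simp only [smul_sub, smul_add, smul_smul] at hb
  rw [mul_comm _ μ'] at hb
  have h7 : (1 - (w ⬝ᵥ φ)⁻¹ * a - b) • g *ᵥ v = μ' • v := by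
    rw [sub_smul, sub_smul, one_smul]
    linear_combination (norm := abel) hb
  have h8 : ((1 - (w ⬝ᵥ φ)⁻¹ * a - b) - μ') • v + (1 - (w ⬝ᵥ φ)⁻¹ * a - b) • d = 0 := by
    rw [hgv, smul_add] at h7
    rw [sub_smul]
    linear_combination (norm := abel) h7
  obtain ⟨h9, h10⟩ := hli _ _ h8
  rw [h10, zero_sub, neg_eq_zero] at h9
  exact hμ'0 h9

theorem ncard_scal_le {g : Matrix ι ι F} {v : ι → F}
    (hvd : LinearIndependent F ![v, (g - 1) *ᵥ v]) :
    {φ ∈ adm v ((g - 1) *ᵥ v) | Scal g v φ}.ncard ≤ 1 :=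
  (Set.ncard_le_one_iff (Set.toFinite _)).2 fun ha hb => scal_unique hvd ha.1 hb.1 ha.2 hb.2

theorem exists_adm_avoid {v d : ι → F} (hvd : LinearIndependent F ![v, d])
    (P Q R : (ι → F) → Prop) (a b c : ℕ) (hP : {φ ∈ adm v d | P φ}.ncard ≤ a)
    (hQ : {φ ∈ adm v d | Q φ}.ncard ≤ b) (hR : {φ ∈ adm v d | R φ}.ncard ≤ c)
    (h : a + b + c < Fintype.card F ^ (Fintype.card ι - 2)) :
    ∃ φ ∈ adm v d, ¬ P φ ∧ ¬ Q φ ∧ ¬ R φ := by
  by_contra hc
  push_neg at hc
  have hsub : adm v d ⊆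
      ({φ ∈ adm v d | P φ} ∪ {φ ∈ adm v d | Q φ}) ∪ {φ ∈ adm v d | R φ} := by
    intro φ hφ
    by_cases h1 : P φ
    · exact Or.inl (Or.inl ⟨hφ, h1⟩)
    · by_cases h2 : Q φ
      · exact Or.inl (Or.inr ⟨hφ, h2⟩)
      · exact Or.inr ⟨hφ, hc φ hφ h1 h2⟩
  have h3 := Set.ncard_le_ncard hsub (Set.toFinite _)
  rw [ncard_adm hvd] at h3
  have h4 := Set.ncard_union_le ({φ ∈ adm v d | P φ} ∪ {φ ∈ adm v d | Q φ}) {φ ∈ adm v d | R φ}
  have h5 := Set.ncard_union_le {φ ∈ adm v d | P φ} {φ ∈ adm v d | Q φ}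
  omega

theorem exists_witness {N : Matrix ι ι F} {c v : ι → F}
    (hdc : N *ᵥ v ∉ Submodule.span F {c}) (hrk : 2 ≤ finrank F (img N)) (hc : c ≠ 0) :
    c ∉ Submodule.span F {N *ᵥ v} ∧ ∃ x ∈ img N, x ∉ Submodule.span F {N *ᵥ v} := by
  constructor
  · intro h
    obtain ⟨a, ha⟩ := Submodule.mem_span_singleton.1 h
    apply hdc
    have ha0 : a ≠ 0 := by rintro rfl; simp at ha; exact hc ha.symm
    exact Submodule.mem_span_singleton.2 ⟨a⁻¹, by rw [← ha, smul_smul, inv_mul_cancel₀ ha0, one_smul]⟩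
  · by_contra h
    push_neg at h
    have h1 : img N ≤ Submodule.span F {N *ᵥ v} := h
    have := (Submodule.finrank_mono h1).trans (finrank_span_le_card (R := F) {N *ᵥ v})
    simp at this
    omega

/-- The main step. -/
theorem step_main {κ : Type*} [Fintype κ] [DecidableEq κ] (e : Unit ⊕ κ ≃ ι) (g : Matrix ι ι F)
    (hq : 3 ≤ Fintype.card F) (hn : 4 ≤ Fintype.card ι) (hdet : g.det = 1)
    (hrk : 2 ≤ finrank F (img (g - 1))) (hns : ∀ μ : F, g ≠ μ • 1)
    {c r : ι → F} (hc : c ≠ 0) (hr : r ≠ 0) :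
    ∃ (v φ : ι → F) (D : Frame g e v φ), r ⬝ᵥ v ≠ 0 ∧ φ ⬝ᵥ c ≠ 0 ∧ D.g'.det = 1 ∧
      2 ≤ finrank F (img (D.g' - 1)) ∧ (∀ μ : F, D.g' ≠ μ • 1) ∧ D.cv ≠ 0 ∧
      ((4 ≤ Fintype.card F ∨ 5 ≤ Fintype.card ι) → D.rv ≠ 0) := by
  classical
  obtain ⟨v, hrv, hdc, hvd, hvR⟩ :=
    exists_vector g hq (by rw [hdet]; exact one_ne_zero) hrk hns (c := c) hr
  set d := (g - 1) *ᵥ v with hd
  set n := Fintype.card ι with hn'
  set q := Fintype.card F with hq'
  obtain ⟨hcd, x, hxR, hxd⟩ := exists_witness hdc hrk hc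
  have hd0 : d ≠ 0 := fun h => hdc (by rw [h]; exact Submodule.zero_mem _)
  have hκ : Fintype.card κ = n - 1 := by
    have := Fintype.card_congr e
    simp at this
    omega
  have hκne : Nonempty κ := Fintype.card_pos_iff.1 (by omega)
  have hgv : g *ᵥ v = v + d := by rw [hd, sub_one_mulVec]; abel
  have hgvR : v ∉ img (g - 1) → g *ᵥ v ∉ img (g - 1) := fun h h' => h (by
    have := (img (g - 1)).sub_mem h' (⟨v, rfl⟩ : d ∈ img (g - 1))
    simpa [hgv] using this)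
  have hpow3 : q ^ (n - 2) = q ^ (n - 3) * q := by rw [← pow_succ]; congr 1; omega
  have hpow4 : q ^ (n - 3) = q ^ (n - 4) * q := by rw [← pow_succ]; congr 1; omega
  have hp : 0 < q ^ (n - 4) := pow_pos (by omega) _
  have hB1 : {φ ∈ adm v d | c ⬝ᵥ φ = 0}.ncard ≤ q ^ (n - 3) := ncard_adm_one hvd hcd
  have hB2 : {φ ∈ adm v d | x ⬝ᵥ φ = 0}.ncard ≤ q ^ (n - 3) := ncard_adm_one hvd hxd
  by_cases h3 : 3 ≤ finrank F (img (g - 1))
  · -- large rank
    obtain ⟨φ, hφ, n1, n2, n4⟩ := exists_adm_avoid hvd _ _ (fun φ => Scal g v φ) _ _ _ hB1 hB2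
      (ncard_scal_le hvd) (by
        rw [← hn', ← hq', hpow3]
        have h6 : 3 ≤ q ^ (n - 3) := by rw [hpow4]; exact le_trans hq (Nat.le_mul_of_pos_left _ hp)
        have h7 : q ^ (n - 3) * 3 ≤ q ^ (n - 3) * q := Nat.mul_le_mul_left _ hq
        linarith)
    obtain ⟨D⟩ := exists_frame g e v φ hφ.1 hφ.2
    obtain ⟨-, hb, hb'⟩ := D.rank_g'_bounds hφ.2 hφ.1
    refine ⟨v, φ, D, hrv, by rwa [dotProduct_comm], by rw [D.det_g', hdet], ?_,
      fun μ h => n4 (D.scal_of_smul hκne hdet h), D.cv_ne hd0, fun _ => D.rv_ne ⟨x, hxR, n2⟩⟩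
    rcases hvR with htop | hvR
    · rw [htop, finrank_top, finrank_fintype_fun_eq_card] at hb
      omega
    · have := (hb' (hgvR hvR)).1
      omega
  · -- rank two
    have hne : img (g - 1) ≠ ⊤ := by
      intro h
      rw [h, finrank_top, finrank_fintype_fun_eq_card] at h3
      omega
    have hvR' := hvR.resolve_left hne
    let K : Submodule F (ι → F) := LinearMap.ker (g - 1).mulVecLin
    have hKd : n - 2 ≤ finrank F K := by
      have := (g - 1).mulVecLin.finrank_range_add_finrank_ker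
      rw [finrank_fintype_fun_eq_card] at this
      change finrank F (img (g - 1)) + finrank F K = n at this
      omega
    have hvK : v ∉ K := fun h => hd0 h
    have hcap : ∀ U : Submodule F (ι → F), v ∈ U → finrank F ↥(K ⊓ U) + 1 ≤ finrank F U := by
      intro U hU
      apply Submodule.finrank_lt_finrank_of_lt
      refine lt_of_le_of_ne inf_le_right fun h => hvK ?_
      have : v ∈ K ⊓ U := by rw [h]; exact hU
      exact this.1
    have hspan2 : finrank F (Submodule.span F (Set.range ![v, d])) = 2 := by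
      rw [finrank_span_eq_card hvd, Fintype.card_fin]
    obtain ⟨k₁, hk₁K, hk₁⟩ : ∃ k ∈ K, k ∉ Submodule.span F (Set.range ![v, d]) := by
      by_contra hc'
      push_neg at hc'
      have h4 : K ≤ K ⊓ Submodule.span F (Set.range ![v, d]) := le_inf le_rfl hc'
      have h5 := Submodule.finrank_mono h4
      have h6 := hcap _ (Submodule.subset_span ⟨0, rfl⟩ : v ∈ Submodule.span F (Set.range ![v, d]))
      omega
    have hli3 : LinearIndependent F ![v, d, k₁] := by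
      have e' : ![v, d, k₁] = Fin.snoc ![v, d] k₁ := by funext i; fin_cases i <;> rfl
      rw [e', linearIndependent_finSnoc]
      exact ⟨hvd, hk₁⟩
    have fin : ∀ φ, φ ∈ adm v d → ¬ (c ⬝ᵥ φ = 0) →
        (∃ k ∈ K, k ⬝ᵥ φ ≠ 0) → ((4 ≤ q ∨ 5 ≤ n) → ¬ (x ⬝ᵥ φ = 0)) →
        ∃ (v φ : ι → F) (D : Frame g e v φ), r ⬝ᵥ v ≠ 0 ∧ φ ⬝ᵥ c ≠ 0 ∧ D.g'.det = 1 ∧
          2 ≤ finrank F (img (D.g' - 1)) ∧ (∀ μ : F, D.g' ≠ μ • 1) ∧ D.cv ≠ 0 ∧
          ((4 ≤ q ∨ 5 ≤ n) → D.rv ≠ 0) := by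
      rintro φ hφ n1 ⟨k, hk, n3⟩ n2
      obtain ⟨D⟩ := exists_frame g e v φ hφ.1 hφ.2
      obtain ⟨hu, -, hb'⟩ := D.rank_g'_bounds hφ.2 hφ.1
      have hrk' : 2 ≤ finrank F (img (D.g' - 1)) :=
        hrk.trans ((hb' (hgvR hvR')).2 ⟨k, hk, n3⟩)
      refine ⟨v, φ, D, hrv, by rwa [dotProduct_comm], by rw [D.det_g', hdet], hrk', ?_,
        D.cv_ne hd0, fun h => D.rv_ne ⟨x, hxR, n2 h⟩⟩
      intro μ h
      by_cases hμ : μ = 1
      · rw [h, hμ, one_smul, sub_self, img, Matrix.mulVecLin_zero, LinearMap.range_zero,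
          finrank_bot] at hrk'
        omega
      · rw [h, finrank_img_smul_one hμ] at hu
        omega
    by_cases h5 : 5 ≤ n
    · obtain ⟨k₂, hk₂K, hk₂⟩ : ∃ k ∈ K, k ∉ Submodule.span F (Set.range ![v, d, k₁]) := by
        by_contra hc'
        push_neg at hc'
        have h4 : K ≤ K ⊓ Submodule.span F (Set.range ![v, d, k₁]) := le_inf le_rfl hc'
        have h6 := Submodule.finrank_mono h4
        have h7 := hcap _ (Submodule.subset_span ⟨0, rfl⟩ :
          v ∈ Submodule.span F (Set.range ![v, d, k₁]))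
        have h8 : finrank F (Submodule.span F (Set.range ![v, d, k₁])) = 3 := by
          rw [finrank_span_eq_card hli3, Fintype.card_fin]
        omega
      have hli4 : LinearIndependent F ![v, d, k₁, k₂] := by
        have e' : ![v, d, k₁, k₂] = Fin.snoc ![v, d, k₁] k₂ := by funext i; fin_cases i <;> rfl
        rw [e', linearIndependent_finSnoc]
        exact ⟨hli3, hk₂⟩
      obtain ⟨φ, hφ, n1, n2, n3⟩ := exists_adm_avoid hvd _ _ _ _ _ _ hB1 hB2
        (ncard_adm_two hli4) (by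
          rw [← hn', ← hq', hpow3, hpow4, mul_assoc]
          have : q ^ (n - 4) * 9 ≤ q ^ (n - 4) * (q * q) :=
            Nat.mul_le_mul_left _ (Nat.mul_le_mul hq hq)
          have h10 : q ^ (n - 4) * (q + q + 1) < q ^ (n - 4) * (q * q) :=
            Nat.mul_lt_mul_of_pos_left (by nlinarith) hp
          calc _ = q ^ (n - 4) * (q + q + 1) := by ring
            _ < _ := h10)
      refine fin φ hφ n1 ?_ fun _ => n2
      by_cases h : k₁ ⬝ᵥ φ = 0
      · exact ⟨k₂, hk₂K, fun h' => n3 ⟨h, h'⟩⟩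
      · exact ⟨k₁, hk₁K, h⟩
    · have hk₁d : k₁ ∉ Submodule.span F {d} := fun h =>
        hk₁ ((Submodule.span_singleton_le_iff_mem _ _).2
          (Submodule.subset_span ⟨1, rfl⟩ : d ∈ Submodule.span F (Set.range ![v, d])) h)
      have hB3 : {φ ∈ adm v d | k₁ ⬝ᵥ φ = 0}.ncard ≤ q ^ (n - 3) := ncard_adm_one hvd hk₁d
      have hn4 : n = 4 := by omega
      by_cases hq4 : 4 ≤ q
      · obtain ⟨φ, hφ, n1, n2, n3⟩ := exists_adm_avoid hvd _ _ _ _ _ _ hB1 hB2 hB3 (by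
          rw [← hn', ← hq', hn4]
          norm_num
          nlinarith)
        exact fin φ hφ n1 ⟨k₁, hk₁K, n3⟩ fun _ => n2
      · obtain ⟨φ, hφ, n1, -, n3⟩ := exists_adm_avoid hvd _ (fun _ => False) _ _ 0 _ hB1
          (by simp) hB3 (by
            rw [← hn', ← hq', hn4]
            norm_num
            nlinarith)
        exact fin φ hφ n1 ⟨k₁, hk₁K, n3⟩ fun h => absurd h (by omega)

/-- The last step for a tail of size two. -/
theorem step_last {κ : Type*} [Fintype κ] [DecidableEq κ] (e : Unit ⊕ κ ≃ ι) (g : Matrix ι ι F)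
    (hq : 3 ≤ Fintype.card F) (hn : Fintype.card ι = 3) (hdet : g.det = 1)
    (hrk : 2 ≤ finrank F (img (g - 1))) (hns : ∀ μ : F, g ≠ μ • 1)
    {c r : ι → F} (hc : c ≠ 0) (hr : r ≠ 0) :
    ∃ (v φ : ι → F) (D : Frame g e v φ), r ⬝ᵥ v ≠ 0 ∧ φ ⬝ᵥ c ≠ 0 ∧ D.g'.det = 1 ∧
      (∀ μ : F, D.g' ≠ μ • 1) := by
  classical
  obtain ⟨v, hrv, hdc, hvd, -⟩ :=
    exists_vector g hq (by rw [hdet]; exact one_ne_zero) hrk hns (c := c) hr
  obtain ⟨hcd, -⟩ := exists_witness hdc hrk hc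
  have hκne : Nonempty κ := Fintype.card_pos_iff.1 (by
    have := Fintype.card_congr e
    simp at this
    omega)
  obtain ⟨φ, hφ, n1, n4, -⟩ := exists_adm_avoid hvd _ (fun φ => Scal g v φ) (fun _ => False)
    _ _ 0 (ncard_adm_one hvd hcd) (ncard_scal_le hvd) (by simp) (by
      rw [hn]; norm_num; omega)
  obtain ⟨D⟩ := exists_frame g e v φ hφ.1 hφ.2
  exact ⟨v, φ, D, hrv, by rwa [dotProduct_comm], by rw [D.det_g', hdet],
    fun μ h => n4 (D.scal_of_smul hκne hdet h)⟩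

end Cfsg.Agent.SLComm
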